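import Cfsg.Agent.H195.RC.EvenVec

/-!
# S3510, family E, box E14 (graph involutions, `q` even): frames for `n = 3` (helper195)

* `Frm q T w e e'` : a frame of `V_0 = Fix T`, `⟨e, e'⟩ ⟂ w` hyperbolic;
* `Frm.dec`, `exists_frm`;
* `Frm.quad` : `g (g v) = t • g v + v` on `w^⊥` for a linear isometry commuting with `T` fixing `w`;
* `Frm.four` : `q = 4`, such a `g` has order dividing 2, 3 or 5.
-/

set_option autoImplicit false
set_option linter.unusedSectionVars false

namespace Cfsg.Agent.H195.RC

open Matrix Cfsg Cfsg.Agent.LieClassical.HermBasic Cfsg.Agent.LieClassical.HermSiegel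
  Cfsg.Agent.LieClassical.HermGen Cfsg.Agent.LieClassical.SUBasic Cfsg.Agent.ClassicalGeometry.PSUAutBasic
  Cfsg.Agent.ClassicalGeometry.PSUAutCount Cfsg.Agent.LieClassical.FieldTransfer Cfsg.Agent.ClassicalGeometry
open Cfsg.Agent.H380.RC

section frm

variable {F : Type*} [Field F] [Fintype F] {n q : ℕ}

/-- a frame: `w` nonsingular, `e, e'` a hyperbolic pair in `w^⊥`, all fixed by `T` -/
structure Frm (q : ℕ) (T : (Fin n → F) → (Fin n → F)) (w e e' : Fin n → F) : Prop where
  Tw : T w = w
  Te : T e = e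
  Te' : T e' = e'
  ww : hermForm n F q w w ≠ 0
  ee : hermForm n F q e e = 0
  ee' : hermForm n F q e e' = 1
  e'e : hermForm n F q e' e = 1
  e'e' : hermForm n F q e' e' = 0
  ew : hermForm n F q e w = 0
  e'w : hermForm n F q e' w = 0
  we : hermForm n F q w e = 0
  we' : hermForm n F q w e' = 0

variable {T : (Fin n → F) → (Fin n → F)} {w e e' : Fin n → F}

theorem Frm.dec (h : Frm q T w e e') (hn : n = 3) (v : Fin n → F) :
    v = hermForm n F q v e' • e + hermForm n F q v e • e' + (hermForm n F q v w * (hermForm n F q w w)⁻¹) • w := by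
  let L : (Fin n → F) →ₗ[F] (Fin 3 → F) := LinearMap.pi ![hfun q e', hfun q e, hfun q w]
  have hL : ∀ u, L u = ![hermForm n F q u e', hermForm n F q u e, hermForm n F q u w] := by
    intro u
    funext i
    fin_cases i <;> rfl
  have hcomp : ∀ a b c : F, L (a • e + b • e' + c • w) = ![a, b, c * hermForm n F q w w] := by
    intro a b c
    rw [hL]
    simp only [herm_add_left, herm_smul_left, h.ee, h.ee', h.e'e, h.e'e', h.ew, h.e'w, h.we, h.we']
    simp
  have hsurj : Function.Surjective L := by
    intro c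
    refine ⟨c 0 • e + c 1 • e' + (c 2 * (hermForm n F q w w)⁻¹) • w, ?_⟩
    rw [hcomp, mul_assoc, inv_mul_cancel₀ h.ww, mul_one]
    funext i
    fin_cases i <;> rfl
  have hinj : Function.Injective L := by
    refine (LinearMap.injective_iff_surjective_of_finrank_eq_finrank ?_).2 hsurj
    rw [Module.finrank_fin_fun, Module.finrank_fin_fun, hn]
  apply hinj
  rw [hcomp, hL, mul_assoc, inv_mul_cancel₀ h.ww, mul_one]

/-- the vectors of `w^⊥` -/
theorem Frm.dec' (h : Frm q T w e e') (hn : n = 3) {v : Fin n → F} (hv : hermForm n F q v w = 0) :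
    v = hermForm n F q v e' • e + hermForm n F q v e • e' := by
  have h1 := h.dec hn v
  rwa [hv, zero_mul, zero_smul, add_zero] at h1

theorem Frm.e_ne (h : Frm q T w e e') : e ≠ 0 := by
  intro h0
  have h1 := h.ee'
  rw [h0, herm_zero_left] at h1
  exact zero_ne_one h1

section iso

variable (hF : Fintype.card F = q ^ 2) (hq : Even q) {g : (Fin n → F) → (Fin n → F)}
  (hadd : ∀ v v', g (v + v') = g v + g v') (hlin : Lin g)
  (hiso : ∀ v v', hermForm n F q (g v) (g v') = hermForm n F q v v') (hgw : g w = w)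

include hF hadd hlin hiso hgw

/-- the matrix of `g` in a frame -/
theorem Frm.coef (h : Frm q T w e e') (hn : n = 3) :
    g e = hermForm n F q (g e) e' • e + hermForm n F q (g e) e • e' ∧
    g e' = hermForm n F q (g e') e' • e + hermForm n F q (g e') e • e' := by
  constructor
  · apply h.dec' hn
    nth_rewrite 1 [← hgw]
    rw [hiso, h.ew]
  · apply h.dec' hn
    nth_rewrite 1 [← hgw]
    rw [hiso, h.e'w]

include hq

/-- `g (g v) = t g v + v` on `w^⊥` -/
theorem Frm.quad (h : Frm q T w e e') (hn : n = 3)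
    (hfix : ∀ u v, T u = u → T v = v → (hermForm n F q u v) ^ q = hermForm n F q u v) (hgT : ∀ v, g (T v) = T (g v)) :
    ∃ t : F, t ^ q = t ∧ ∀ v, hermForm n F q v w = 0 → g (g v) = t • g v + v := by
  obtain ⟨h1, h2⟩ := h.coef hF hadd hlin hiso hgw hn
  have hTe : T (g e) = g e := by rw [← hgT, h.Te]
  have hTe' : T (g e') = g e' := by rw [← hgT, h.Te']
  have a1 := hfix _ _ hTe h.Te'
  have a2 := hfix _ _ hTe h.Te
  have a3 := hfix _ _ hTe' h.Te'
  have a4 := hfix _ _ hTe' h.Te
  set α := hermForm n F q (g e) e' with hα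
  set γ := hermForm n F q (g e) e with hγ
  set β := hermForm n F q (g e') e' with hβ
  set δ := hermForm n F q (g e') e with hδ
  have h3 : α * δ + γ * β = 1 := by
    have h4 := hiso e e'
    rw [h1, h2, herm_add_left, herm_add_right hF, herm_add_right hF] at h4
    simp only [herm_smul_left, herm_smul_right, h.ee, h.ee', h.e'e, h.e'e'] at h4
    rw [a3, a4] at h4
    linear_combination h4
  have hc := add_self hF hq (1 : F)
  have ge : g (g e) = (α + δ) • g e + e := by
    have h4 : g (g e) = α • g e + γ • g e' := by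
      conv_lhs => rw [h1]
      rw [hadd, hlin, hlin]
    have h5 : (α * α + γ * β) • e + (α * γ + γ * δ) • e' = ((α + δ) * α + 1) • e + ((α + δ) * γ) • e' := by
      congr 1
      · congr 1
        linear_combination h3 - α * δ * hc
      · congr 1
        ring
    calc g (g e) = α • g e + γ • g e' := h4
      _ = (α * α + γ * β) • e + (α * γ + γ * δ) • e' := by rw [h1, h2]; module
      _ = ((α + δ) * α + 1) • e + ((α + δ) * γ) • e' := h5
      _ = (α + δ) • (α • e + γ • e') + e := by module
      _ = (α + δ) • g e + e := by rw [← h1]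
  have ge' : g (g e') = (α + δ) • g e' + e' := by
    have h4 : g (g e') = β • g e + δ • g e' := by
      conv_lhs => rw [h2]
      rw [hadd, hlin, hlin]
    have h5 : (β * α + δ * β) • e + (β * γ + δ * δ) • e' = ((α + δ) * β) • e + ((α + δ) * δ + 1) • e' := by
      congr 1
      · congr 1
        ring
      · congr 1
        linear_combination h3 - α * δ * hc
    calc g (g e') = β • g e + δ • g e' := h4
      _ = (β * α + δ * β) • e + (β * γ + δ * δ) • e' := by rw [h1, h2]; module
      _ = ((α + δ) * β) • e + ((α + δ) * δ + 1) • e' := h5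
      _ = (α + δ) • (β • e + δ • e') + e' := by module
      _ = (α + δ) • g e' + e' := by rw [← h2]
  refine ⟨α + δ, by rw [add_pow_q hF, a1, a4], fun v hv => ?_⟩
  have h6 := h.dec' hn hv
  set a := hermForm n F q v e' with ha
  set b := hermForm n F q v e with hb
  rw [h6, hadd, hadd, hlin, hlin, hlin, hlin, ge, ge']
  module

omit hq in
theorem Frm.iter (h : Frm q T w e e') (hn : n = 3) {m : ℕ} (hm : ∀ v, hermForm n F q v w = 0 → g^[m] v = v) (v : Fin n → F) :
    g^[m] v = v := by
  have h1 : ∀ (k : ℕ) (u : Fin n → F) (c : F), g^[k] (u + c • w) = g^[k] u + c • w := by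
    intro k
    induction k with
    | zero => intro u c; rfl
    | succ k ih => intro u c; rw [Function.iterate_succ_apply', ih, hadd, hlin, hgw, Function.iterate_succ_apply']
  rw [h.dec hn v, h1, hm]
  rw [herm_add_left, herm_smul_left, herm_smul_left, h.ew, h.e'w, mul_zero, mul_zero, add_zero]

/-- `q = 4` : the order of `g` divides 2, 3 or 5 -/
theorem Frm.four (h : Frm q T w e e') (hn : n = 3) (hq4 : q = 4)
    (hfix : ∀ u v, T u = u → T v = v → (hermForm n F q u v) ^ q = hermForm n F q u v) (hgT : ∀ v, g (T v) = T (g v)) :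
    ∃ m : ℕ, m.Prime ∧ ∀ v, g^[m] v = v := by
  obtain ⟨t, ht, hquad⟩ := h.quad hF hq hadd hlin hiso hgw hn hfix hgT
  have hc := add_self hF hq (1 : F)
  have h2 : ∀ v : Fin n → F, v + v = 0 := by
    intro v
    have : v + v = (1 + 1 : F) • v := by module
    rw [this, hc, zero_smul]
  by_cases h0 : t = 0
  · refine ⟨2, Nat.prime_two, h.iter hF hadd hlin hiso hgw hn fun v hv => ?_⟩
    change g (g v) = v
    rw [hquad v hv, h0, zero_smul, zero_add]
  by_cases h1 : t = 1
  · refine ⟨3, Nat.prime_three, h.iter hF hadd hlin hiso hgw hn fun v hv => ?_⟩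
    change g (g (g v)) = v
    rw [hquad v hv, h1, one_smul, hadd, hquad v hv, h1, one_smul]
    have h3 : g v + v + g v = (g v + g v) + v := by abel
    rw [h3, h2, zero_add]
  · refine ⟨5, Nat.prime_five, h.iter hF hadd hlin hiso hgw hn fun v hv => ?_⟩
    have h3 : t ^ 2 + t + 1 = 0 := by
      rw [hq4] at ht
      have h4 : t * (t - 1) * (t ^ 2 + t + 1) = 0 := by linear_combination ht
      rcases mul_eq_zero.1 h4 with h5 | h5
      · rcases mul_eq_zero.1 h5 with h6 | h6
        · exact absurd h6 h0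
        · exact absurd (sub_eq_zero.1 h6) h1
      · exact h5
    change g (g (g (g (g v)))) = v
    rw [hquad v hv]
    have hlin' : ∀ (c : F) (u : Fin n → F), g (c • u) = c • g u := hlin
    simp only [hadd, hlin', hquad v hv]
    have e1 : (t • (t • (t • (t • g v + v) + g v) + (t • g v + v)) + (t • (t • g v + v) + g v)) =
        (t ^ 4 + 3 * t ^ 2 + 1) • g v + (t ^ 3 + 2 * t) • v := by module
    rw [e1]
    have e2 : t ^ 4 + 3 * t ^ 2 + 1 = 0 := by
      linear_combination (t ^ 2 - t + 3) * h3 - (t + 1) * hc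
    have e3 : t ^ 3 + 2 * t = 1 := by
      linear_combination (t - 1) * h3 + t * hc
    rw [e2, e3, zero_smul, one_smul, zero_add]

end iso

end frm

section gform

variable {G Ω : Type} [Group G] [MulAction G Ω] {N : Subgroup G} {F : Type} [Field F] [Fintype F] {n q : ℕ}
  {U : UEnv G Ω N F n q} {ι : Type} {x : ι → G} {f : ι → (Fin n → F) → (Fin n → F)} {r : ι → ℕ} {i₀ : ι}
  {T : (Fin n → F) → (Fin n → F)}

/-- existence of a frame -/
theorem exists_frm (hT : GForm U x f r i₀ T) (hq : Even q) {w : Fin n → F} (hTw : T w = w)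
    (hww : hermForm n F q w w ≠ 0) (halt : ∀ v, T v = v → hermForm n F q v w = 0 → hermForm n F q v v = 0) :
    ∃ e e', Frm q T w e e' := by
  have hF := U.hF
  have hperpT : ∀ v, hermForm n F q v w = 0 → hermForm n F q (T v) w = 0 := by
    intro v hv
    nth_rewrite 1 [← hTw]
    rw [herm_T hT hq, hv, zero_pow_q hF]
  -- a nonzero `T`-fixed vector
  obtain ⟨e, he0, hTe, hew⟩ : ∃ e : Fin n → F, e ≠ 0 ∧ T e = e ∧ hermForm n F q e w = 0 := by
    obtain ⟨v, hv, hv0⟩ : ∃ v ∈ perp q w, v ≠ 0 := by
      have h2 : perp q w ≠ ⊥ := by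
        intro h
        have h1 := finrank_perp hww
        rw [h, finrank_bot] at h1
        have := U.hn
        omega
      exact (Submodule.ne_bot_iff _).1 h2
    rw [mem_perp] at hv
    by_cases h : T v = v
    · exact ⟨v, hv0, h, hv⟩
    · refine ⟨v + T v, fun h1 => h ?_, by rw [hT.add, hT.TT, add_comm], by rw [herm_add_left, hv, hperpT v hv, add_zero]⟩
      have h2 : T v = -v := eq_neg_of_add_eq_zero_right h1
      rw [h2]
      funext i
      exact neg_eq hF hq (v i)
  obtain ⟨z₀, hz₀, hz₀e⟩ : ∃ z₀ ∈ perp q w, hermForm n F q e z₀ ≠ 0 := by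
    by_contra hcon
    push Not at hcon
    exact he0 (nDeg_perp hF hww e (mem_perp.2 hew) hcon)
  rw [mem_perp] at hz₀
  have hz₀e' : hermForm n F q z₀ e ≠ 0 := fun h0 => hz₀e (herm_eq_zero_swap hF h0)
  obtain ⟨s, hs⟩ := exists_trace_eq hF (c := (1 : F)) (one_pow q)
  obtain ⟨z, hzw, hze⟩ : ∃ z : Fin n → F, hermForm n F q z w = 0 ∧ hermForm n F q z e = s :=
    ⟨(s * (hermForm n F q z₀ e)⁻¹) • z₀, by rw [herm_smul_left, hz₀, mul_zero],
      by rw [herm_smul_left, mul_assoc, inv_mul_cancel₀ hz₀e', mul_one]⟩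
  have hTe' : T (z + T z) = z + T z := by rw [hT.add, hT.TT, add_comm]
  have he'w : hermForm n F q (z + T z) w = 0 := by rw [herm_add_left, hzw, hperpT z hzw, add_zero]
  have he'e : hermForm n F q (z + T z) e = 1 := by
    rw [herm_add_left]
    nth_rewrite 2 [← hTe]
    rw [herm_T hT hq, hze, hs]
  refine ⟨e, z + T z, hTw, hTe, hTe', hww, halt e hTe hew, ?_, he'e, halt _ hTe' he'w, hew, he'w,
    herm_eq_zero_swap hF hew, herm_eq_zero_swap hF he'w⟩
  rw [herm_swap hF (z + T z) e, he'e, one_pow]

end gform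

end Cfsg.Agent.H195.RC
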