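import Cfsg.Agent.H195.RC.EvenFrame
import Cfsg.Agent.H452.RC.GDecMain

/-!
# S3510, family E, box E14 (graph involutions, `q` even) (helper195)

* `graph_even : SmallStmt → GraphEven`.
-/

set_option autoImplicit false
set_option linter.unusedSectionVars false

namespace Cfsg.Agent.H195.RC

open Matrix Cfsg Module Cfsg.Agent.LieClassical.HermBasic Cfsg.Agent.LieClassical.HermSiegel
  Cfsg.Agent.LieClassical.HermGen Cfsg.Agent.LieClassical.SUBasic Cfsg.Agent.ClassicalGeometry.PSUAutBasic
  Cfsg.Agent.ClassicalGeometry.PSUAutCount Cfsg.Agent.LieClassical.FieldTransfer Cfsg.Agent.ClassicalGeometry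
open Cfsg.Agent.H380.RC Cfsg.Agent.H452.RC
open Cfsg.Agent.H189.SN (ON phi Im Im_mulVec phi_Im phi_perp phi_injective pr_phi_injective herm_Im herm_Im_perp
  decomp Im_injective exists_perp)

section cen

variable {F : Type*} [Field F] [Fintype F] {n q : ℕ} {T : (Fin n → F) → (Fin n → F)} {w e e' : Fin n → F}

/-- `SU(w^⊥)` commutes with `T` -/
theorem Frm.cen (hF : Fintype.card F = q ^ 2) (hq : Even q) (h : Frm q T w e e') (hn : n = 3)
    (hTadd : ∀ v v', T (v + v') = T v + T v') (hTsmul : ∀ (c : F) v, T (c • v) = c ^ q • T v)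
    {b : Fin 2 → (Fin n → F)} (hb : ON q b) (hbA : ∀ c, hermForm n F q (Im b *ᵥ c) w = 0)
    (hAb : ∀ v, hermForm n F q v w = 0 → ∃ c, v = Im b *ᵥ c) (a : SU 2 F q) (v : Fin n → F) :
    T (act (phi hF hb a) v) = act (phi hF hb a) (T v) := by
  set g : (Fin n → F) → (Fin n → F) := act (phi hF hb a) with hg
  have hadd : ∀ v v', g (v + v') = g v + g v' := fun v v' => act_add _ v v'
  have hlin : ∀ (c : F) (v : Fin n → F), g (c • v) = c • g v := fun c v => act_smul _ c v
  have hiso : ∀ v v', hermForm n F q (g v) (g v') = hermForm n F q v v' := fun v v' => herm_act _ v v'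
  have hbi : ∀ i, hermForm n F q w (b i) = 0 := by
    intro i
    have h1 := hbA (Pi.single i 1)
    rw [Im_mulVec, Finset.sum_eq_single i, Pi.single_eq_same, one_smul] at h1
    · exact herm_eq_zero_swap hF h1
    · intro k _ hk
      rw [Pi.single_eq_of_ne hk, zero_smul]
    · intro h
      exact absurd (Finset.mem_univ i) h
  have hgw : g w = w := phi_perp hF hb a hbi
  obtain ⟨h1, h2⟩ := h.coef hF hadd hlin hiso hgw hn
  obtain ⟨p, hp⟩ := hAb e h.ew
  obtain ⟨p', hp'⟩ := hAb e' h.e'w
  set α := hermForm n F q (g e) e' with hα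
  set γ := hermForm n F q (g e) e with hγ
  set β := hermForm n F q (g e') e' with hβ
  set δ := hermForm n F q (g e') e with hδ
  have hc := add_self hF hq (1 : F)
  have k0 : hermForm n F q (α • e + γ • e') (α • e + γ • e') = 0 := by rw [← h1, hiso, h.ee]
  have k1 : hermForm n F q (α • e + γ • e') (β • e + δ • e') = 1 := by rw [← h1, ← h2, hiso, h.ee']
  have k2 : hermForm n F q (β • e + δ • e') (β • e + δ • e') = 0 := by rw [← h2, hiso, h.e'e']
  have k3 : hermForm n F q (β • e + δ • e') (α • e + γ • e') = 1 := by rw [← h1, ← h2, hiso, h.e'e]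
  rw [herm_add_left, herm_add_right hF, herm_add_right hF] at k0 k1 k2 k3
  simp only [herm_smul_left, herm_smul_right, h.ee, h.ee', h.e'e, h.e'e'] at k0 k1 k2 k3
  -- the determinant
  have hdet : α * δ + β * γ = 1 := by
    have e1 : act a p = α • p + γ • p' := by
      apply Im_injective hb
      change Im b *ᵥ act a p = Im b *ᵥ (α • p + γ • p')
      rw [← phi_Im hF hb, ← hp, mulVec_add, mulVec_smul, mulVec_smul, ← hp, ← hp']
      exact h1
    have e2 : act a p' = β • p + δ • p' := by
      apply Im_injective hb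
      change Im b *ᵥ act a p' = Im b *ᵥ (β • p + δ • p')
      rw [← phi_Im hF hb, ← hp', mulVec_add, mulVec_smul, mulVec_smul, ← hp, ← hp']
      exact h2
    have e3 : (act a p) 0 * (act a p') 1 - (act a p) 1 * (act a p') 0 = p 0 * p' 1 - p 1 * p' 0 := by
      have h3 : ∀ v : Fin 2 → F, act a v = mat a *ᵥ v := fun v => rfl
      have h4 : (mat a).det = 1 := det_mat a
      rw [Matrix.det_fin_two] at h4
      rw [h3, h3]
      simp only [Matrix.mulVec, dotProduct, Fin.sum_univ_two]
      linear_combination (p 0 * p' 1 - p 1 * p' 0) * h4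
    rw [e1, e2] at e3
    simp only [Pi.add_apply, Pi.smul_apply, smul_eq_mul] at e3
    have e4 : p 0 * p' 1 - p 1 * p' 0 ≠ 0 := by
      intro h0
      have h3 : p' 1 • p = p 1 • p' := by
        funext i
        fin_cases i
        · simp only [Pi.smul_apply, smul_eq_mul, Fin.zero_eta]
          linear_combination h0
        · simp only [Pi.smul_apply, smul_eq_mul, Fin.mk_one]
          ring
      have h4 : p' 0 • p = p 0 • p' := by
        funext i
        fin_cases i
        · simp only [Pi.smul_apply, smul_eq_mul, Fin.zero_eta]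
          ring
        · simp only [Pi.smul_apply, smul_eq_mul, Fin.mk_one]
          linear_combination -h0
      have h5 : ∀ c c' : F, c' • p = c • p' → c = 0 ∧ c' = 0 := by
        intro c c' hcc
        have h6 : c' • e = c • e' := by
          rw [hp, hp', ← mulVec_smul, ← mulVec_smul, hcc]
        have h7 := congrArg (fun u => hermForm n F q u e') h6
        have h8 := congrArg (fun u => hermForm n F q u e) h6
        simp only [herm_smul_left, h.ee', h.e'e', h.ee, h.e'e, mul_one, mul_zero] at h7 h8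
        exact ⟨h8.symm, h7⟩
      have h9 : p = 0 := by
        funext i
        fin_cases i
        · exact (h5 _ _ h4).1
        · exact (h5 _ _ h3).1
      apply h.e_ne
      rw [hp, h9, mulVec_zero]
    have e5 : (p 0 * p' 1 - p 1 * p' 0) * (α * δ + β * γ - 1) = 0 := by
      linear_combination e3 + (p 0 * p' 1 - p 1 * p' 0) * β * γ * hc
    exact sub_eq_zero.1 ((mul_eq_zero.1 e5).resolve_left e4)
  have m1 : α ^ q = α := by
    linear_combination α * k3 + β * k0 - α ^ q * hdet - α * β * γ ^ q * hc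
  have m2 : γ ^ q = γ := by
    linear_combination γ * k3 + δ * k0 - γ ^ q * hdet - γ * δ * α ^ q * hc
  have m3 : β ^ q = β := by
    linear_combination β * k1 + α * k2 - β ^ q * hdet - α * β * δ ^ q * hc
  have m4 : δ ^ q = δ := by
    linear_combination δ * k1 + γ * k2 - δ ^ q * hdet - γ * δ * β ^ q * hc
  have t1 : T (g e) = g e := by
    rw [h1, hTadd, hTsmul, hTsmul, m1, m2, h.Te, h.Te']
  have t2 : T (g e') = g e' := by
    rw [h2, hTadd, hTsmul, hTsmul, m3, m4, h.Te, h.Te']
  rw [h.dec hn v]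
  simp only [hadd, hlin, hTadd, hTsmul, hgw, t1, t2, h.Tw, h.Te, h.Te']

end cen

/-- the case `n = 3` -/
theorem graph_three (hsmall : SmallStmt) {G Ω : Type} [Group G] [Finite G] [Finite Ω] [Nonempty Ω] [MulAction G Ω]
    {N : Subgroup G} {F : Type} [Field F] [Fintype F] {n q : ℕ} (U : UEnv G Ω N F n q) {ι : Type} [Finite ι]
    (x : ι → G) (f : ι → (Fin n → F) → (Fin n → F)) (r : ι → ℕ) (hcov : H106.RC.Cov Ω x) (hq : Even q)
    (hIH : H106.RC.IH (Nat.card (PSU n F q))) (i₀ : ι) (T : (Fin n → F) → (Fin n → F)) (hT : GForm U x f r i₀ T)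
    {w : Fin n → F} (hTw : T w = w) (hww : hermForm n F q w w ≠ 0) (hfw : ∀ j, j ≠ i₀ → f j w = w)
    (hst : ∀ i, Stab (f i) (perp q w)) (hn : n = 3) : False := by
  classical
  have hF := U.hF
  have hfam := hT.fam
  obtain ⟨b₀, hb₀, hTf⟩ := hT.eq
  have hfT : ∀ v, f i₀ v = b₀⁻¹ • T v := by
    intro v
    rw [hTf, smul_smul, inv_mul_cancel₀ hb₀, one_smul]
  obtain ⟨j₁, hj₁⟩ := H106.RC.Cov.two U.env hcov hfam.pf.ne i₀
  have hq4 : 4 ≤ q := by
    have h2 := two_le hF
    have h3 := U.h32
    obtain ⟨k, hk⟩ := hq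
    have h4 : q ≠ 2 := fun h => h3 ⟨hn, h⟩
    omega
  have hiso : ∀ j, j ≠ i₀ → ∀ u v, hermForm n F q (f j u) (f j v) = hermForm n F q u v :=
    fun j hj => lin_iso (hfam.lft j) (hT.lin j hj)
  -- the form is alternating on `V_0 ∩ w^⊥`
  have halt : ∀ v, T v = v → hermForm n F q v w = 0 → hermForm n F q v v = 0 := by
    intro v hTv hvw
    by_contra hvv
    obtain ⟨w₁, hTw₁, hw₁, hfw₁, hw₁w⟩ := exists_fix hT hq hTv
    have hw₁w := hw₁w w hfw hvw
    rw [← hw₁] at hvv
    apply hfam.pf.ne j₁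
    rw [(hfam.lft j₁).eq_one_iff]
    refine ⟨1, fun z => ?_⟩
    rw [one_smul]
    -- the orthogonal of `w, w₁`
    have hfr : finrank F (perp q w ⊓ perp q w₁ : Submodule F (Fin n → F)) = 1 := by
      have h1 := finrank_perp hww
      have h2 := finrank_perp hvv
      have h3 := Submodule.finrank_sup_add_finrank_inf_eq (perp q w) (perp q w₁)
      have h4 := Submodule.finrank_le (perp q w ⊔ perp q w₁)
      rw [finrank_fin_fun] at h4
      have h5 : finrank F (perp q w ⊓ perp q w₁ : Submodule F (Fin n → F)) < finrank F (perp q w₁) := by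
        apply Submodule.finrank_lt_finrank_of_lt
        refine lt_of_le_of_ne inf_le_right fun h => ?_
        have h6 : w ∈ perp q w₁ := mem_perp.2 (herm_eq_zero_swap hF hw₁w)
        rw [← h] at h6
        exact hww (mem_perp.1 h6.1)
      omega
    obtain ⟨⟨y, hy⟩, hy0, hyall⟩ := finrank_eq_one_iff'.1 hfr
    have hy0' : y ≠ 0 := fun h => hy0 (Subtype.ext h)
    have hyall' : ∀ u : Fin n → F, hermForm n F q u w = 0 → hermForm n F q u w₁ = 0 → ∃ c : F, u = c • y := by
      intro u h1 h2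
      obtain ⟨c, hc⟩ := hyall ⟨u, mem_perp.2 h1, mem_perp.2 h2⟩
      exact ⟨c, (congrArg Subtype.val hc).symm⟩
    have hyw := mem_perp.1 hy.1
    have hyw₁ := mem_perp.1 hy.2
    have hdec : ∀ u : Fin n → F, ∃ a b c : F, u = a • w + b • w₁ + c • y := by
      intro u
      obtain ⟨c, hc⟩ := hyall' (u - (hermForm n F q u w * (hermForm n F q w w)⁻¹) • w -
        (hermForm n F q u w₁ * (hermForm n F q w₁ w₁)⁻¹) • w₁) (by
          rw [herm_sub_left, herm_sub_left, herm_smul_left, herm_smul_left, hw₁w, mul_assoc, inv_mul_cancel₀ hww]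
          ring) (by
          rw [herm_sub_left, herm_sub_left, herm_smul_left, herm_smul_left, herm_eq_zero_swap hF hw₁w, mul_assoc,
            mul_assoc, inv_mul_cancel₀ hvv]
          ring)
      exact ⟨_, _, c, by rw [← hc]; abel⟩
    have hyy : hermForm n F q y y ≠ 0 := by
      intro h0
      obtain ⟨u, hu⟩ := exists_herm_ne_zero hF hy0'
      apply hu
      obtain ⟨a, b, c, rfl⟩ := hdec u
      rw [herm_add_right hF, herm_add_right hF, herm_smul_right, herm_smul_right, herm_smul_right, hyw, hyw₁, h0]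
      ring
    obtain ⟨c, hc⟩ := hyall' (f j₁ y) (by
        nth_rewrite 1 [← hfw j₁ hj₁]
        rw [hiso j₁ hj₁, hyw]) (by
        nth_rewrite 1 [← hfw₁ j₁ hj₁]
        rw [hiso j₁ hj₁, hyw₁])
    obtain ⟨d, hd⟩ := hyall' (T y) (by
        nth_rewrite 1 [← hTw]
        rw [herm_T hT hq, hyw, zero_pow_q hF]) (by
        nth_rewrite 1 [← hTw₁]
        rw [herm_T hT hq, hyw₁, zero_pow_q hF])
    have hd0 : d ≠ 0 := by
      rintro rfl
      rw [zero_smul] at hd
      apply hy0'
      rw [← hT.TT y, hd, T_zero hT]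
    have hc1 : c = 1 := by
      apply eq_one_of hF hq
      · have h1 := hiso j₁ hj₁ y y
        rw [hc, herm_smul_left, herm_smul_right, ← mul_assoc] at h1
        exact mul_right_cancel₀ hyy (by rw [h1, one_mul])
      · have h1 := hT.comm j₁ hj₁ y
        rw [hd, hc, hT.smul, hd, hT.lin j₁ hj₁, hc, smul_smul, smul_smul] at h1
        have h2 : (c ^ q * d - d * c) • y = 0 := by rw [sub_smul, h1, sub_self]
        have h3 := (smul_eq_zero.1 h2).resolve_right hy0'
        exact mul_right_cancel₀ hd0 (by linear_combination h3)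
    obtain ⟨a', b', c', rfl⟩ := hdec z
    have hl : ∀ (a : F) (u : Fin n → F), f j₁ (a • u) = a • f j₁ u := hT.lin j₁ hj₁
    rw [Ind.map_add (hfam.lft j₁), Ind.map_add (hfam.lft j₁), hl, hl, hl, hfw j₁ hj₁, hfw₁ j₁ hj₁, hc, hc1, one_smul]
  obtain ⟨e, e', hfrm⟩ := exists_frm hT hq hTw hww halt
  -- the plane
  have hA := nDeg_perp hF hww
  have hfr : finrank F (perp q w) = 2 := by
    have := finrank_perp hww
    omega
  obtain ⟨b, hb, hbA, hAb⟩ := exists_basis hF hA hfr
  have hmn : 2 < n := by omega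
  have hbi : ∀ i, b i ∈ perp q w := by
    intro i
    have h1 := hbA (Pi.single i 1)
    rwa [Im_mulVec, Finset.sum_eq_single i, Pi.single_eq_same, one_smul] at h1
    · intro k _ hk
      rw [Pi.single_eq_of_ne hk, zero_smul]
    · intro h
      exact absurd (Finset.mem_univ i) h
  have hinv : ∀ i j, ∃ c, f i (b j) = Im b *ᵥ c := fun i j => hAb _ (hst i _ (hbi j))
  have hfix : ∀ u v, T u = u → T v = v → (hermForm n F q u v) ^ q = hermForm n F q u v :=
    fun u v hu hv => herm_fix hT hq hu hv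
  -- `x i₀` centralises `SU(A)`
  have hcen₀ : ∀ m ∈ MM U hb, x i₀ * m = m * x i₀ := by
    rintro _ ⟨a, rfl⟩
    have h1 := (hfam.lft i₀).conj_el (s := phi hF hb a) (s' := phi hF hb a) (fun v => by
      rw [hfT, hfT, hfrm.cen hF hq hn hT.add hT.smul hb (fun c => mem_perp.1 (hbA c))
        (fun v hv => hAb v (mem_perp.2 hv)), act_smul])
    exact mul_inv_eq_iff_eq_mul.1 h1
  -- the M-rule
  have hM : ∀ ω : Ω, MM U hb ≤ MulAction.stabilizer G ω ∨
      ∃ j, (∀ m ∈ MM U hb, x j * m = m * x j) ∧ x j • ω = ω := by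
    intro ω
    by_cases h4 : q = 4
    · have huniq : ∀ j, j ≠ i₀ → j = j₁ := by
        intro j hj
        by_contra hjj
        have hg := (hfam.lft j).mul (hfam.lft j₁)
        obtain ⟨m, hm, hgm⟩ := hfrm.four (g := fun v => f j (f j₁ v)) hF hq
          (fun v v' => by rw [Ind.map_add (hfam.lft j₁), Ind.map_add (hfam.lft j)])
          (fun c v => by
            change f j (f j₁ (c • v)) = c • f j (f j₁ v)
            rw [hT.lin j₁ hj₁, hT.lin j hj])
          (fun v v' => by rw [hiso j hj, hiso j₁ hj₁]) (by rw [hfw j₁ hj₁, hfw j hj]) hn h4 hfix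
          (fun v => by rw [hT.comm j₁ hj₁, hT.comm j hj])
        have h1 : (x j * x j₁) ^ m = 1 := by
          rw [(hg.pow m).eq_one_iff]
          exact ⟨1, fun v => by rw [hgm, one_smul]⟩
        have o1 : orderOf (x j) = r j := orderOf_eq_prime (hfam.pf.pow j) (hfam.pf.ne j) (hp := ⟨hfam.pf.prime j⟩)
        have o2 : orderOf (x j₁) = r j₁ :=
          orderOf_eq_prime (hfam.pf.pow j₁) (hfam.pf.ne j₁) (hp := ⟨hfam.pf.prime j₁⟩)
        have h2 : orderOf (x j * x j₁) = r j * r j₁ := by
          rw [← o1, ← o2]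
          apply Commute.orderOf_mul_eq_mul_orderOf_of_coprime (hfam.pf.comm j j₁)
          rw [o1, o2, Nat.coprime_primes (hfam.pf.prime j) (hfam.pf.prime j₁)]
          exact fun h => hjj (hfam.pf.inj h)
        have h3 : r j * r j₁ ∣ m := by
          rw [← h2]
          exact orderOf_dvd_of_pow_eq_one h1
        rcases (Nat.dvd_prime hm).1 h3 with h5 | h5
        · exact (hfam.pf.prime j).one_lt.ne' (Nat.eq_one_of_mul_eq_one_right h5)
        · exact Nat.not_prime_mul (hfam.pf.prime j).one_lt.ne' (hfam.pf.prime j₁).one_lt.ne' (h5 ▸ hm)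
      refine H106.RC.mrule_one (simple_two hF hq4) (nc_two hF hq4) x r hfam.pf.prime hfam.pf.inj hfam.pf.pow
        hfam.pf.comm (MM U hb) (MM_perf U hb (comm_two hF hq4)) (pi U hb hmn) (pi_surjective U hb hmn)
        (pi_ker U hb hmn) j₁ (mem_normalizer U hb (hfam.lft j₁) (hinv j₁)) (fun i hi => ?_) ω (fun m _ => hcov _)
      by_cases hi₀ : i = i₀
      · rw [hi₀]
        exact hcen₀
      · exact absurd (huniq i hi₀) hi
    · have hRC : H106.RC.RC (PSU 2 F q) := by
        apply rc_two hF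
        intro K _ _ hK
        obtain ⟨k, hk⟩ := hq
        exact (hsmall hF U.hn U.h32 hIH).2.2.2.2.2.1 K hK hq4 h4 (by omega) (by omega)
      exact H106.RC.mrule_RC (simple_two hF hq4) (nc_two hF hq4) x r hfam.pf.prime hfam.pf.inj hfam.pf.pow
        hfam.pf.comm (MM U hb) (MM_perf U hb (comm_two hF hq4)) (pi U hb hmn) (pi_surjective U hb hmn)
        (pi_ker U hb hmn) (fun i => mem_normalizer U hb (hfam.lft i) (hinv i)) hRC ω (fun m _ => hcov _)
  -- only `x i₀` centralises `SU(A)`
  have honly : ∀ j, j ≠ i₀ → ¬ ∀ m ∈ MM U hb, x j * m = m * x j := by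
    intro j hj hcen
    obtain ⟨c, hc⟩ := scalar_of_comm' le_rfl hmn (hfam.lft j) (hT.lin j hj) (hinv j) hcen
    have hfe : ∀ v, hermForm n F q v w = 0 → f j v = c • v := by
      intro v hv
      obtain ⟨d, rfl⟩ := hAb v (mem_perp.2 hv)
      exact hc d
    have hc1 : c = 1 := by
      apply eq_one_of hF hq
      · have h1 := hiso j hj e e'
        rw [hfe e hfrm.ew, hfe e' hfrm.e'w, herm_smul_left, herm_smul_right, hfrm.ee', mul_one] at h1
        exact h1
      · have h1 := hT.comm j hj e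
        rw [hfrm.Te, hfe e hfrm.ew, hT.smul, hfrm.Te] at h1
        have h2 : (c ^ q - c) • e = 0 := by rw [sub_smul, h1, sub_self]
        exact sub_eq_zero.1 ((smul_eq_zero.1 h2).resolve_right hfrm.e_ne)
    apply hfam.pf.ne j
    rw [(hfam.lft j).eq_one_iff]
    refine ⟨1, fun z => ?_⟩
    have hl : ∀ (a : F) (u : Fin n → F), f j (a • u) = a • f j u := hT.lin j hj
    have hz := hfrm.dec hn z
    set a1 := hermForm n F q z e'
    set a2 := hermForm n F q z e
    set a3 := hermForm n F q z w * (hermForm n F q w w)⁻¹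
    rw [one_smul, hz, Ind.map_add (hfam.lft j), Ind.map_add (hfam.lft j), hl, hl, hl, hfw j hj, hfe e hfrm.ew,
      hfe e' hfrm.e'w, hc1, one_smul, one_smul]
  -- conclusion
  obtain ⟨p, hp⟩ := hAb e (mem_perp.2 hfrm.ew)
  have hpp : hermForm 2 F q p p = 0 := by rw [← herm_Im hF hb, ← hp, hfrm.ee]
  obtain ⟨μ, hμ0, hμ⟩ := exists_trace_zero_ne (F := F) (q := q) hF
  have hpe : hermForm n F q (Im b *ᵥ p) (Im b *ᵥ p) = 0 := by rw [← hp, hfrm.ee]
  refine U.root_one (hfam.lft i₀) (u := Im b *ᵥ p) (by rw [← hp]; exact hfrm.e_ne) hpe (c := b₀⁻¹)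
    (by rw [← hp, hfT, hfrm.Te]) hT.nlin hμ hμ0 (fun ω => ?_)
  rcases hM ω with h | ⟨j, hj, hjω⟩
  · left
    apply h
    rw [← phi_transv hF hb hpp hpe hμ]
    exact ph_mem U hb _
  · right
    by_cases hj₀ : j = i₀
    · rw [← hj₀]
      exact hjω
    · exact absurd hj (honly j hj₀)

/-- **Box E14** -/
theorem graph_even (hsmall : SmallStmt) : GraphEven := by
  intro G Ω _ _ _ _ _ N F _ _ n q U ι _ x f r hfam hcov ⟨hq, h42, hIH, i₀, T, hT, v, hTv, hv⟩
  have hF := U.hF
  obtain ⟨w, hTw, hww, hfw, -⟩ := exists_fix hT hq hTv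
  rw [← hww] at hv
  obtain ⟨b₀, hb₀, hTf⟩ := hT.eq
  have hst : ∀ i, Stab (f i) (perp q w) := by
    intro i v hvw
    rw [mem_perp] at hvw ⊢
    by_cases hi : i = i₀
    · subst hi
      have h1 : hermForm n F q (T v) w = 0 := by
        nth_rewrite 1 [← hTw]
        rw [herm_T hT hq, hvw, zero_pow_q hF]
      rw [hTf, herm_smul_left] at h1
      exact (mul_eq_zero.1 h1).resolve_left hb₀
    · nth_rewrite 1 [← hfw i hi]
      rw [lin_iso (hfam.lft i) (hT.lin i hi), hvw]
  by_cases hn : n = 3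
  · exact graph_three hsmall U x f r hcov hq hIH i₀ T hT hTw hv hfw hst hn
  · have hn3 := U.hn
    have hfr := finrank_perp hv
    have h32 : ¬ (finrank F (perp q w) = 3 ∧ q = 2) := fun h => h42 ⟨by omega, h.2⟩
    refine dec_main U x f r hfam hcov ⟨perp q w, nDeg_perp hF hv, perp_ne_top hv, by omega, h32, hst,
      fun i hsc => ?_, (hsmall hF U.hn U.h32 hIH).1 _ (by omega) (by omega) h32⟩
    by_cases hi : i = i₀
    · subst hi
      exfalso
      obtain ⟨z, hz, hz0⟩ : ∃ z ∈ perp q w, z ≠ 0 := by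
        have h2 : perp q w ≠ ⊥ := by
          intro h
          rw [h, finrank_bot] at hfr
          omega
        exact (Submodule.ne_bot_iff _).1 h2
      exact not_scalOn (hfam.lft i) hT.nlin hz hz0 hsc
    · have h1 : (r i).Prime := hfam.pf.prime i
      have h2 : r i ≠ 2 := fun h => hi (hfam.pf.inj (h.trans hT.r2.symm))
      obtain ⟨p, k, hp, hchar, hk, hk0⟩ := exists_prime_pow hF
      have h3 : p = 2 := by
        have h4 : 2 ∣ p ^ k := by rw [← hk]; exact hq.two_dvd
        exact ((Nat.prime_dvd_prime_iff_eq Nat.prime_two hp).1 (Nat.prime_two.dvd_of_dvd_pow h4)).symm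
      rw [hk, h3]
      exact Nat.Coprime.pow_right _ ((Nat.coprime_primes h1 Nat.prime_two).2 h2)

end Cfsg.Agent.H195.RC
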