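import Cfsg.Agent.H319.FC.Sem
import Cfsg.Agent.H688.FC.F2

/-!
# S3510, `Sp_4(q)`, `q` even: graph automorphisms do not centralise the torus of order `q² + 1` (helper195)

* `quad_id` : `B² + tr(A) B + tr(mn A) = 0` for `B = A + A⁻¹`, `A ∈ Sp_4(F)`, characteristic two;
* `irr_not_cent`.
-/

set_option autoImplicit false
set_option linter.unusedSectionVars false

namespace Cfsg.Agent.H195.RC

open Module Matrix Cfsg Polynomial
open Cfsg.Agent.H319.FC Cfsg.Agent.H688.FC
open Cfsg.Agent.ClassicalGeometry.SympBasic Cfsg.Agent.ClassicalGeometry.SympAutSemi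
open Cfsg.Agent.ClassicalGeometry.Sp4Graph

universe u

variable {F : Type u} [Field F]

section id

variable [CharP F 2]

theorem adj_apply (A : M4 F) (i j : I4) : adj A i j = A (Sum.swap j) (Sum.swap i) := by
  have hneg : ∀ z : F, -z = z := fun z => CharTwo.neg_eq z
  rw [adj, Matrix.neg_apply, hneg, mul_eq]
  simp only [mul_eq, J_apply_eq, Matrix.transpose_apply]
  rcases i with i | i <;> rcases j with j | j <;> fin_cases i <;> fin_cases j <;> simp

theorem quad_id (A : Sp4 F) :
    ((A : M4 F) + adj (A : M4 F)) * ((A : M4 F) + adj (A : M4 F)) +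
      Matrix.trace (A : M4 F) • ((A : M4 F) + adj (A : M4 F)) + Matrix.trace (mn (A : M4 F)) • (1 : M4 F) = 0 := by
  have h2 : (2 : F) = 0 := CharTwo.two_eq_zero
  have r02 := row_rel A.2 (.inl 0) (.inr 0)
  have c02 := col_rel A.2 (.inl 0) (.inr 0)
  have r13 := row_rel A.2 (.inl 1) (.inr 1)
  have c13 := col_rel A.2 (.inl 1) (.inr 1)
  simp only [Sum.swap_inr, if_true] at r02 c02 r13 c13
  have htr : Matrix.trace (A : M4 F) = (A : M4 F) (.inl 0) (.inl 0) + (A : M4 F) (.inl 1) (.inl 1) +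
      (A : M4 F) (.inr 0) (.inr 0) + (A : M4 F) (.inr 1) (.inr 1) := by
    simp [Matrix.trace, Fin.sum_univ_two]
    ring
  have htm : Matrix.trace (mn (A : M4 F)) = mn (A : M4 F) (.inl 0) (.inl 0) + mn (A : M4 F) (.inl 1) (.inl 1) +
      mn (A : M4 F) (.inr 0) (.inr 0) + mn (A : M4 F) (.inr 1) (.inr 1) := by
    simp [Matrix.trace, Fin.sum_univ_two]
    ring
  simp only [mn_apply, pa, pb, if_true, one_ne_zero, if_false] at htm
  ext i j
  rw [Matrix.add_apply, Matrix.add_apply, mul_eq, Matrix.smul_apply, Matrix.smul_apply, htr, htm, Matrix.zero_apply]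
  simp only [Matrix.add_apply, adj_apply, smul_eq_mul, Matrix.one_apply]
  rcases i with i | i <;> rcases j with j | j <;> fin_cases i <;> fin_cases j <;>
    simp
  all_goals clear htr htm r13 c13
  all_goals grind

end id

/-- the number of elements of order dividing `q² + 1` is at most `4 q` if there are relations between the traces -/
theorem card_le_of {L : Type u} [Field L] [Finite F] (ι : F →+* L) (b : F → F) (S : Finset L)
    (h : ∀ l ∈ S, ∃ a : F, (l ^ 2 + 1) ^ 2 + ι a * l * (l ^ 2 + 1) + ι (b a) * l ^ 2 = 0) : S.card ≤ Nat.card F * 4 := by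
  classical
  have := Fintype.ofFinite F
  let P : F → L[X] := fun a => X ^ 4 + (C (ι a) * X ^ 3 + (C (2 + ι (b a)) * X ^ 2 + (C (ι a) * X + C 1)))
  have hdeg : ∀ a, (P a).natDegree = 4 := by
    intro a
    have h1 : (C (ι a) * X ^ 3 + (C (2 + ι (b a)) * X ^ 2 + (C (ι a) * X + C 1)) : L[X]).natDegree < 4 := by
      refine lt_of_le_of_lt ?_ (by norm_num : 3 < 4)
      refine natDegree_add_le_of_degree_le (natDegree_C_mul_X_pow_le _ _) ?_
      refine natDegree_add_le_of_degree_le ((natDegree_C_mul_X_pow_le _ _).trans (by norm_num)) ?_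
      refine natDegree_add_le_of_degree_le ((natDegree_C_mul_le _ _).trans (natDegree_X_le.trans (by norm_num))) ?_
      rw [natDegree_C]
      norm_num
    rw [natDegree_add_eq_left_of_natDegree_lt, natDegree_X_pow]
    rwa [natDegree_X_pow]
  have hne : ∀ a, P a ≠ 0 := fun a h0 => by
    have h1 := hdeg a
    rw [h0, natDegree_zero] at h1
    omega
  have hsub : S ⊆ (Finset.univ : Finset F).biUnion fun a => (P a).roots.toFinset := by
    intro l hl
    obtain ⟨a, ha⟩ := h l hl
    rw [Finset.mem_biUnion]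
    refine ⟨a, Finset.mem_univ a, ?_⟩
    rw [Multiset.mem_toFinset, mem_roots (hne a), IsRoot.def]
    simp only [P, eval_add, eval_mul, eval_pow, eval_X, eval_C]
    linear_combination ha
  refine (Finset.card_le_card hsub).trans ?_
  refine (Finset.card_biUnion_le_card_mul _ _ 4 fun a _ => ?_).trans ?_
  · refine (Multiset.toFinset_card_le _).trans ?_
    rw [← hdeg a]
    exact card_roots' _
  · rw [Finset.card_univ, Nat.card_eq_fintype_card]

/-- **A graph automorphism does not centralise the torus of order `q² + 1`.** -/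
theorem irr_not_cent {F : Type u} [Field F] [Finite F] [CharP F 2] (hq : 4 ≤ Nat.card F) {z : Sp4 F} (hz1 : z ≠ 1)
    (hzo : Odd (orderOf z)) (hirr : Irr4 z) {δ : MulAut (Sp4 F)} (hδ : δ ∉ (conjHom 2 F).range) :
    ∃ d : Sp4 F, z * d = d * z ∧ δ d ≠ d := by
  classical
  by_contra hcon
  push Not at hcon
  obtain ⟨g, rfl⟩ := exists_graph hq hδ
  obtain ⟨φ, l₀, hl₀, hg⟩ := id g.2
  -- traces
  have htr : ∀ d : Sp4 F, z * d = d * z →
      Matrix.trace (mn (d : M4 F)) = φ.symm (Matrix.trace (d : M4 F)) := by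
    intro d hd
    have h1 := hcon d hd
    have h2 := trace_conjHom hg (graphEquiv F d)
    rw [MulAut.mul_apply] at h1
    rw [h1, graphEquiv_apply, graphHom_coe] at h2
    rw [h2, RingEquiv.symm_apply_apply]
  obtain ⟨L, _, _, _, θ, hθ, hL, hcent⟩ := exists_field (z := (z : M4 F)) hirr
  have h4 : finrank F L = 4 := by
    rw [hL]
    rfl
  -- the adjoint
  have hst : ∀ l : L, ∃ l' : L, θ l' = adj (θ l) := by
    intro l
    rw [← hcent]
    have h1 : (z : M4 F) * θ l = θ l * (z : M4 F) := (hcent _).2 ⟨l, rfl⟩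
    have h2 := congrArg adj h1
    rw [adj_mul, adj_mul] at h2
    have h3 := adj_mul_self z
    have h3' : (z : M4 F) * adj (z : M4 F) = 1 := mul_eq_one_comm.1 h3
    calc (z : M4 F) * adj (θ l) = (z : M4 F) * adj (θ l) * (adj (z : M4 F) * (z : M4 F)) := by rw [h3, mul_one]
      _ = (z : M4 F) * (adj (θ l) * adj (z : M4 F)) * (z : M4 F) := by simp only [mul_assoc]
      _ = ((z : M4 F) * adj (z : M4 F)) * adj (θ l) * (z : M4 F) := by rw [h2]; simp only [mul_assoc]
      _ = adj (θ l) * (z : M4 F) := by rw [h3', one_mul]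
  choose st hst using hst
  let τ₀ : L →ₐ[F] L :=
    { toFun := st
      map_one' := hθ (by rw [hst, map_one, adj_one])
      map_mul' := fun a b => hθ (by rw [map_mul, hst, hst, hst, map_mul, adj_mul, ← hst, ← hst, ← map_mul, ← map_mul, mul_comm])
      map_zero' := hθ (by rw [hst, map_zero, adj_zero])
      map_add' := fun a b => hθ (by rw [map_add, hst, hst, hst, map_add, adj_add])
      commutes' := fun r => hθ (by rw [hst, θ.commutes, adj_algebraMap]) }
  have hτ₀ : ∀ l, τ₀ (τ₀ l) = l := by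
    intro l
    apply hθ
    change θ (st (st l)) = θ l
    rw [hst, hst, adj_adj]
  let τ : L ≃ₐ[F] L := AlgEquiv.ofAlgHom τ₀ τ₀ (AlgHom.ext hτ₀) (AlgHom.ext hτ₀)
  have hτ : ∀ l, τ l = st l := fun _ => rfl
  obtain ⟨ζ, hζ⟩ := (hcent (z : M4 F)).1 rfl
  have hττ : τ * τ = 1 := AlgEquiv.ext hτ₀
  have hτ1 : τ ≠ 1 := by
    intro h0
    have h1 : st ζ = ζ := by rw [← hτ, h0]; rfl
    have h2 : adj (z : M4 F) = (z : M4 F) := by rw [← hζ, ← hst, h1]
    have h3 := adj_mul_self z
    rw [h2] at h3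
    have h4 : z * z = 1 := Subtype.ext h3
    have h5 : orderOf z ∣ 2 := orderOf_dvd_of_pow_eq_one (by rw [pow_two, h4])
    rcases (Nat.dvd_prime Nat.prime_two).1 h5 with h6 | h6
    · exact hz1 (orderOf_eq_one_iff.1 h6)
    · rw [h6] at hzo
      exact absurd hzo (by decide)
  have hstp : ∀ l, st l = l ^ (Nat.card F ^ 2) := fun l => star_pow h4 τ hττ hτ1 l
  have hunit : ∀ l : L, adj (θ l) * θ l = 1 ↔ l ^ (Nat.card F ^ 2 + 1) = 1 := by
    intro l
    rw [← hst, ← map_mul, hstp, ← pow_succ, ← map_one θ]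
    exact hθ.eq_iff
  obtain ⟨c₀, hc₀, -⟩ := exists_c h4
  have hc₀1 : c₀ ^ (Nat.card F ^ 2 + 1) = 1 := by rw [← hc₀]; exact pow_orderOf_eq_one c₀
  let S : Finset L := (Finset.range (Nat.card F ^ 2 + 1)).image fun k => c₀ ^ k
  have hS : S.card = Nat.card F ^ 2 + 1 := by
    rw [Finset.card_image_of_injOn, Finset.card_range]
    intro i hi j hj hij
    rw [Finset.coe_range, Set.mem_Iio, ← hc₀] at hi hj
    exact pow_injOn_Iio_orderOf hi hj hij
  have hle : S.card ≤ Nat.card F * 4 := by
    refine card_le_of (algebraMap F L) (fun a => φ.symm a) S fun l hl => ?_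
    obtain ⟨k, -, rfl⟩ := Finset.mem_image.1 hl
    have hk1 : (c₀ ^ k) ^ (Nat.card F ^ 2 + 1) = 1 := by rw [← pow_mul, mul_comm, pow_mul, hc₀1, one_pow]
    set l := c₀ ^ k with hlk
    let d : Sp4 F := ⟨θ l, mem_of_adj ((hunit l).2 hk1)⟩
    have hd : (d : M4 F) = θ l := rfl
    have hzd : z * d = d * z := comm_coe.2 ((hcent _).2 ⟨l, rfl⟩)
    have h1 := quad_id d
    rw [htr d hzd, hd, ← hst] at h1
    set a := Matrix.trace (θ l : M4 F) with ha
    have h2 : θ ((l + st l) * (l + st l) + algebraMap F L a * (l + st l) + algebraMap F L (φ.symm a)) = θ 0 := by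
      rw [map_zero, ← h1]
      simp only [map_add, map_mul, θ.commutes]
      rw [Algebra.algebraMap_eq_smul_one, Algebra.algebraMap_eq_smul_one, smul_mul_assoc, one_mul]
    have h3 := hθ h2
    have h5 : st l * l = 1 := by
      apply hθ
      rw [map_mul, hst, map_one]
      exact (hunit l).2 hk1
    refine ⟨a, ?_⟩
    have h6 : l * (l + st l) = l ^ 2 + 1 := by rw [mul_add, mul_comm l (st l), h5]; ring
    calc (l ^ 2 + 1) ^ 2 + algebraMap F L a * l * (l ^ 2 + 1) + algebraMap F L (φ.symm a) * l ^ 2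
        = l ^ 2 * ((l + st l) * (l + st l) + algebraMap F L a * (l + st l) + algebraMap F L (φ.symm a)) := by
          rw [← h6]; ring
      _ = 0 := by rw [h3, mul_zero]
  rw [hS] at hle
  nlinarith

end Cfsg.Agent.H195.RC
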