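import Cfsg.Agent.H393.RC.TriZW
import Cfsg.Agent.H65.RC.ZN4
import Cfsg.Agent.H253.RC.T3Tools
import Cfsg.Agent.H195.RC.MixArith

/-!
# S3510, triality of type iii, the mixed case: the frame (helper195)

`Lin1 g`: the conclusion of `mix_lin`.  `frame`: under `Lin1 g` some member of the family has an order dividing
`q0² + q0 + 1` or `q0² - q0 + 1`.
-/

set_option autoImplicit false
open Cfsg

namespace Cfsg.Agent.H195.RC.Mix

open Module QuadraticMap MulAction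
open Cfsg.Agent.LieClassical.OrthCore Cfsg.Agent.LieClassical.OrthTrans
open Cfsg.Agent.LieClassical.OrthSimple Cfsg.Agent.ClassicalGeometry.OrthSemi
open Cfsg.Agent.ClassicalGeometry.OrthAut1 Cfsg.Agent.H106.RC Cfsg.Agent.H93.RC Cfsg.Agent.H566.RC
open Cfsg.Agent.LieClassical.QuadForms Cfsg.Agent.ClassicalGeometry.TrialityOct
open Cfsg.Agent.ClassicalGeometry.Triality Cfsg.Agent.ClassicalGeometry.TrialitySpaces
open Cfsg.Agent.H198.TriBase Cfsg.Agent.H198.TriAut Cfsg.Agent.H206.Balance Cfsg.Agent.H198.TriDia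
open Cfsg.Agent.H198.TwComp Cfsg.Agent.H198 Cfsg.Agent.H864.RC

variable {F : Type} [Field F]

/-- the conclusion of `mix_lin`, for the whole family -/
def Lin1 {ι : Type} (g : ι → (V8 F ≃ₗ[F] V8 F)) : Prop :=
  (∃ n0, (n0 = Nat.card F - 1 ∨ n0 = Nat.card F + 1) ∧ ∀ n, n ∣ n0 → Odd n → ∃ c ∈ E (plusForm 4 F),
    ∃ (τ : F) (W : Submodule F (V8 F)), W ≠ ⊥ ∧ orderOf c = n ∧ (∀ i, c * g i = g i * c) ∧
      (∀ v ∈ W, c v ∈ W) ∧ (∀ v ∈ W, c (c v) + v = τ • c v) ∧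
      (∀ v ∈ W, (∀ w ∈ W, polar (plusForm 4 F) v w = 0) → v = 0) ∧
      (∀ v, (∀ w ∈ W, polar (plusForm 4 F) v w = 0) → c v = v)) ∨
  (∀ l, l.Prime → l ≠ 2 → l ∣ Nat.card F ^ 2 + 1 → ∃ c ∈ E (plusForm 4 F), c ^ l = 1 ∧ c ≠ 1 ∧
    ∀ i, c * g i = g i * c)

theorem polar_E {d : V8 F ≃ₗ[F] V8 F} (hd : d ∈ E (plusForm 4 F)) (v w : V8 F) :
    polar (plusForm 4 F) (d v) (d w) = polar (plusForm 4 F) v w := by
  have h : ∀ x, plusForm 4 F (d x) = plusForm 4 F x := fun x => E_le_O hd x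
  rw [QuadraticMap.polar, QuadraticMap.polar, ← map_add, h, h, h]

section env
variable {G Ω ι : Type} [Group G] [MulAction G Ω] {N : Subgroup G} {hG : Good (plusForm 4 F)}
  {κ : P8 F →* G} {s : F ≃+* F} {x₁ : G} {x : ι → G} {r : ι → ℕ} {g : ι → (V8 F ≃ₗ[F] V8 F)}

/-- an `l`-element of `E Q` commuting with the family, `l` no `r i`, has a conjugate in `AutD` -/
theorem exists_conj [Finite F] [Finite G] [Finite ι] (h : T3 hG N κ s Ω x₁ x r g) (hN : NoN Ω N) {l k : ℕ}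
    (hl : l.Prime) (hl2 : l ≠ 2) (hlr : ∀ i, r i ≠ l) {c : V8 F ≃ₗ[F] V8 F} (hc : c ∈ E (plusForm 4 F))
    (hcl : c ^ (l ^ k) = 1) (hcg : ∀ i, c * g i = g i * c) :
    ∃ d ∈ E (plusForm 4 F), d * c * d⁻¹ ∈ AutD (fG s) := by
  have hA : IsPGroup l (Subgroup.zpowers c) := by
    rintro ⟨a, ha⟩
    obtain ⟨j, rfl⟩ := Subgroup.mem_zpowers_iff.1 ha
    refine ⟨k, Subtype.ext ?_⟩
    show (c ^ j) ^ (l ^ k) = 1
    rw [← zpow_natCast, ← zpow_mul, mul_comm, zpow_mul, zpow_natCast, hcl, one_zpow]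
  obtain ⟨d, hd, hda⟩ := h.kl_lin hN hl (h.ir hN hl hlr) (fun h0 => absurd h0 hl2) (Subgroup.zpowers c) hA
    (by rw [Subgroup.zpowers_le]; exact hc)
    (by
      intro a ha i
      obtain ⟨j, rfl⟩ := Subgroup.mem_zpowers_iff.1 ha
      have : Commute (c ^ j) (g i) := Commute.zpow_left (hcg i) j
      exact this)
  exact ⟨d, hd, hda c (Subgroup.mem_zpowers c)⟩

theorem dead_zz [Finite F] [Finite G] [Finite ι] (h : T3 hG N κ s Ω x₁ x r g) (hN : NoN Ω N) {q0 : ℕ}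
    (hq : Nat.card F = q0 ^ 3) {l k : ℕ} (hl : l.Prime) (hl2 : l ≠ 2) (hlr : ∀ i, r i ≠ l)
    (h1 : l ^ k ∣ Nat.card F ^ 2 - 1) (h2 : ¬ l ^ k ∣ q0 ^ 2 - 1) {c : V8 F ≃ₗ[F] V8 F}
    (hc : c ∈ E (plusForm 4 F)) (hn : orderOf c = l ^ k) (hcg : ∀ i, c * g i = g i * c)
    {W : Submodule F (V8 F)} {τ : F} (hcW : ∀ v ∈ W, c v ∈ W) (hτ : ∀ v ∈ W, c (c v) + v = τ • c v)
    (hW : ∀ v ∈ W, (∀ w ∈ W, polar (plusForm 4 F) v w = 0) → v = 0)
    (hWp : ∀ v, (∀ w ∈ W, polar (plusForm 4 F) v w = 0) → c v = v) : False := by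
  obtain ⟨d, hd, hda⟩ := exists_conj h hN hl hl2 hlr hc (by rw [← hn]; exact pow_orderOf_eq_one c) hcg
  have hpol := polar_E hd
  have hcd : ∀ v, (d * c * d⁻¹) (d v) = d (c v) := by
    intro v
    show d (c (d⁻¹ (d v))) = d (c v)
    congr 2
    exact d.symm_apply_apply v
  have hmem : ∀ v, v ∈ W.map (d : V8 F →ₗ[F] V8 F) ↔ ∃ w ∈ W, d w = v := fun v => Iff.rfl
  refine Cfsg.Agent.H393.TZ.zzW h.cube h.ne hq hda hl hl2 (k := k) ?_ h1 h2 (W := W.map (d : V8 F →ₗ[F] V8 F))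
    (τ := τ) ?_ ?_ ?_ ?_
  · rw [← hn]
    exact MulEquiv.orderOf_eq (MulAut.conj d) c
  · rintro _ ⟨w, hw, rfl⟩
    exact ⟨c w, hcW w hw, (hcd w).symm⟩
  · rintro _ ⟨w, hw, rfl⟩
    show (d * c * d⁻¹) ((d * c * d⁻¹) (d w)) + d w = τ • (d * c * d⁻¹) (d w)
    rw [hcd, hcd, ← map_smul, ← hτ w hw, map_add]
  · rintro _ ⟨w, hw, rfl⟩ hp
    have : w = 0 := hW w hw fun w' hw' => by
      have := hp (d w') ⟨w', hw', rfl⟩
      rw [← hpol]
      exact this
    rw [this, map_zero]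
  · intro v hv
    have e1 : v = d (d⁻¹ v) := (d.apply_symm_apply v).symm
    rw [e1, hcd, hWp]
    intro w hw
    rw [← hpol, ← e1]
    exact hv _ ⟨w, hw, rfl⟩

/-- **the frame** -/
theorem frame [Finite F] [Finite G] [Finite ι] (h : T3 hG N κ s Ω x₁ x r g) (hN : NoN Ω N) {q0 : ℕ}
    (hq : Nat.card F = q0 ^ 3) (hL : Lin1 g) :
    ∃ i, r i ∣ q0 ^ 2 + q0 + 1 ∨ r i ∣ q0 ^ 2 - q0 + 1 := by
  have hcard : 1 < Nat.card F := Finite.one_lt_card
  have hq2 : 2 ≤ q0 := by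
    by_contra hcon
    have : q0 = 0 ∨ q0 = 1 := by omega
    rcases this with h0 | h0 <;> rw [hq, h0] at hcard <;> norm_num at hcard
  obtain ⟨m, hm⟩ := Nat.exists_eq_add_of_le' (show 1 ≤ q0 by omega)
  have hm1 : 1 ≤ m := by omega
  rcases hL with ⟨n0, hn0, hL⟩ | hL
  · by_cases h3 : 3 ∣ n0
    · exfalso
      have hn1 : n0 ≠ 0 := by rcases hn0 with h0 | h0 <;> omega
      obtain ⟨c, hc, τ, W, -, hn, hcg, hcW, hτ, hW, hWp⟩ := hL (3 ^ padicValNat 3 n0) pow_padicValNat_dvd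
        (Odd.pow (by decide))
      refine dead_zz h hN hq Nat.prime_three (by norm_num) h.three (k := padicValNat 3 n0)
        ?_ ?_ hc hn hcg hcW hτ hW hWp
      · apply MixArith.sq_sub_one _ hcard.le
        rcases hn0 with h0 | h0
        · left; rw [← h0]; exact pow_padicValNat_dvd
        · right; rw [← h0]; exact pow_padicValNat_dvd
      · rcases hn0 with h0 | h0
        · rw [hq, hm] at h0
          rw [h0] at h3 ⊢
          rw [hm]
          exact MixArith.three_plus hm1 h3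
        · rw [hq, hm] at h0
          rw [h0] at h3 ⊢
          rw [hm]
          exact MixArith.three_minus hm1 h3
    · by_contra hcon
      push Not at hcon
      have key : ∀ l : ℕ, l.Prime → l ≠ 2 → l ∣ n0 → ¬ l ∣ q0 ^ 2 - 1 → (∀ i, r i ≠ l) → False := by
        intro l hl hl2 hd h2 hlr
        obtain ⟨c, hc, τ, W, -, hn, hcg, hcW, hτ, hW, hWp⟩ := hL l hd (hl.odd_of_ne_two hl2)
        refine dead_zz h hN hq hl hl2 hlr (k := 1) ?_ ?_ hc (by rw [pow_one]; exact hn) hcg hcW hτ hW hWp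
        · rw [pow_one]
          apply MixArith.sq_sub_one _ hcard.le
          rcases hn0 with h0 | h0
          · left; rw [← h0]; exact hd
          · right; rw [← h0]; exact hd
        · rw [pow_one]; exact h2
      rcases hn0 with h0 | h0
      · obtain ⟨l, hl, hd⟩ := MixArith.exists_plus m
        have hd' : l ∣ n0 := by
          rw [h0, hq, hm]; exact MixArith.dvd_cube_plus hd
        have hl3 : l ≠ 3 := by
          rintro rfl
          exact h3 hd'
        refine key l hl (MixArith.ne_two_of_odd (MixArith.odd_plus m) hd) hd' ?_ ?_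
        · rw [hm]; exact MixArith.ndvd_plus hl hl3 hd
        · intro i hi
          apply (hcon i).1
          rw [hi, hm]
          exact hd
      · obtain ⟨l, hl, hd⟩ := MixArith.exists_minus hm1
        have hd' : l ∣ n0 := by
          rw [h0, hq, hm]; exact MixArith.dvd_cube_minus hd
        have hl3 : l ≠ 3 := by
          rintro rfl
          exact h3 hd'
        refine key l hl (MixArith.ne_two_of_odd (MixArith.odd_minus m) hd) hd' ?_ ?_
        · rw [hm]; exact MixArith.ndvd_minus hl hl3 hd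
        · intro i hi
          apply (hcon i).2
          rw [hi, hm]
          exact hd
  · exfalso
    obtain ⟨l, hl, hl2, hd⟩ := MixArith.exists_four hq2
    by_cases hlr : ∃ i, r i = l
    · obtain ⟨i, hi⟩ := hlr
      exact h.ne1 i (Cfsg.Agent.H65.RC.ZN4 h.cube h.ne hq (h.mem i) hl hl2 hd (by rw [← hi]; exact h.pow i))
    · push Not at hlr
      obtain ⟨c, hc, hcl, hc1, hcg⟩ := hL l hl hl2 (by rw [hq]; exact MixArith.four_dvd hd)
      obtain ⟨d, hdE, hda⟩ := exists_conj h hN hl hl2 hlr hc (k := 1) (by rw [pow_one]; exact hcl) hcg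
      have h5 : (d * c * d⁻¹) ^ l = 1 := by rw [conj_pow, hcl, mul_one, mul_inv_cancel]
      have h6 := Cfsg.Agent.H65.RC.ZN4 h.cube h.ne hq hda hl hl2 hd h5
      apply hc1
      rw [mul_inv_eq_one] at h6
      exact mul_eq_left.1 h6

end env

end Cfsg.Agent.H195.RC.Mix
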