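import Cfsg.Agent.H195.RC.TwUni
import Cfsg.Agent.H106.RC.LrTwo
import Cfsg.Agent.H864.RC.T3

/-!
# S3510, triality of type iii, `k = 2`: `{x₁, u}`, `u` of order `p` (helper195)

1. `u` fixes an absolute point `e` and a vector `y` of `Π / F e`; `b = siegel e (t y)` commutes with `u` and
   `x₁ b x₁⁻¹ = siegel e (φ t y₁)`, `y₁ ∈ Π`: `{d, u}` is a cover, `d = b⁻¹ x₁ b x₁⁻¹ = siegel e w`, `w ∈ Π`.
2. `box_LR1`: `u` is in the long root group of `⟨e, w⟩`.
3. `z = [siegel e b₀, x₁]`, `b₀ ⟂ e`, `(b₀, w) = 1`, is not trivial on `⟨e, w⟩`: `u ∈ [C(u), x₁]`.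
-/

set_option autoImplicit false
set_option linter.unusedSectionVars false
open Cfsg

namespace Cfsg.Agent.H195.RC

open Module QuadraticMap Cfsg.Agent.LieClassical.OrthCore Cfsg.Agent.LieClassical.OrthTrans
  Cfsg.Agent.LieClassical.OrthSimple Cfsg.Agent.ClassicalGeometry.OrthAut1
  Cfsg.Agent.ClassicalGeometry.OrthSemi
  Cfsg.Agent.LieClassical.QuadForms 
  Cfsg.Agent.ClassicalGeometry.TrialityOct Cfsg.Agent.ClassicalGeometry.Triality
  Cfsg.Agent.ClassicalGeometry.TrialitySpaces Cfsg.Agent.H198.TriBase Cfsg.Agent.H198.TriAut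
  Cfsg.Agent.H206.Balance Cfsg.Agent.H198.TriDia Cfsg.Agent.H106.RC Cfsg.Agent.H93.RC Cfsg.Agent.H566.RC
open Cfsg.Agent.H297.RC (ss ss_eq ss_add ss_neg ss_zero conjE_ss)
open Cfsg.Agent.H106.RC.LrTwo (lr_mem_or box_LR1 ss_comm_U)

universe u v w

section

variable {F : Type u} [Field F] {φ : F ≃+* F} {a b : V8 F}

theorem sE_eq (ha : plusForm 4 F a = 0) (hab : QuadraticMap.polar (plusForm 4 F) a b = 0) :
    sE ha hab = ss (plusForm 4 F) a b := by
  rw [ss_eq ha hab]; rfl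

theorem ss_apply (ha : plusForm 4 F a = 0) (hab : QuadraticMap.polar (plusForm 4 F) a b = 0) (x : V8 F) :
    (ss (plusForm 4 F) a b : V8 F ≃ₗ[F] V8 F) x = x + QuadraticMap.polar (plusForm 4 F) a x • b -
    QuadraticMap.polar (plusForm 4 F) b x • a - (plusForm 4 F b * QuadraticMap.polar (plusForm 4 F) a x) • a := by
  rw [← sE_eq ha hab, sE_apply]

/-- `siegel e (c e) = 1` -/
theorem ss_self (ha : plusForm 4 F a = 0) (c : F) : ss (plusForm 4 F) a (c • a) = 1 := by
  have haa : QuadraticMap.polar (plusForm 4 F) a a = 0 := by rw [QuadraticMap.polar_self, ha, smul_zero]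
  have hab : QuadraticMap.polar (plusForm 4 F) a (c • a) = 0 := by rw [polar_smul_right, haa, smul_zero]
  apply Subtype.ext
  apply LinearEquiv.ext
  intro x
  rw [ss_apply ha hab, polar_smul_left, QuadraticMap.map_smul, ha]
  change _ = x
  simp only [smul_eq_mul]
  module

variable {G : Type v} {Ω : Type w} [Group G] [MulAction G Ω] {N : Subgroup G} {κ : P8 F →* G} {x₁ : G}

/-- conjugation of a long root element by `x₁` -/
theorem conj_ss (h : ∀ a : F, φ (φ (φ a)) = a) (hG : Good (plusForm 4 F)) (h1 : La κ x₁ (xt hG (fG φ)))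
    (ha : plusForm 4 F a = 0) (hb : plusForm 4 F b = 0) (hab : QuadraticMap.polar (plusForm 4 F) a b = 0) :
    Lf (up κ) (x₁ * up κ (ss (plusForm 4 F) a b) * x₁⁻¹) (RG h ha hab) := by
  rw [← La.lf]
  have h2 : La κ (up κ (ss (plusForm 4 F) a b)) (Psi _ (tg _ (ss (plusForm 4 F) a b))) := La.lf.2 (Lf.tg _)
  have h3 := (h1.mul h2).mul h1.inv
  rw [← sE_eq ha hab] at h3 ⊢
  rwa [xt_siegel h ha hb hab hG] at h3

/-- the image under `x₁` of `siegel e y`, `y ∈ Π` -/
theorem conj_ss_inP (h : ∀ a : F, φ (φ (φ a)) = a) (hG : Good (plusForm 4 F)) (hE : Env G Ω N)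
    (hκ : Rp (plusForm 4 F) N κ) (h1 : La κ x₁ (xt hG (fG φ))) {e y f : V8 F} (he : e ≠ 0) (hee : tw φ e e = 0)
    (hy : InP φ e y) (hf : QuadraticMap.polar (plusForm 4 F) e f = 1) :
    x₁ * up κ (ss (plusForm 4 F) e y) * x₁⁻¹ = up κ (ss (plusForm 4 F) e (Rw φ e y f)) := by
  have hQe := norm_of_abs h hee
  have hey := hy.polar h he hee
  have hQy := hy.norm h he
  have hR := Rw_inP h (f := f) hee hy hey
  have h2 := conj_ss h hG h1 hQe hQy hey
  have h3 : Lf (up κ) (up κ (ss (plusForm 4 F) e (Rw φ e y f))) (tg _ (ss (plusForm 4 F) e (Rw φ e y f))) := Lf.tg _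
  have h4 : RG h hQe hey = tg _ (ss (plusForm 4 F) e (Rw φ e y f)) := by
    apply Subtype.ext
    ext1 v
    rw [tg_apply, ss_apply hQe (hR.polar h he hee), hR.norm h he, zero_mul, zero_smul, sub_zero]
    change v + Rw φ e y v = _
    rw [Rw_siegel h he hee hy hf v]
    abel
  rw [h4, ← La.lf] at h2
  rw [← La.lf] at h3
  exact h2.eq hE hκ h3

end

section main

variable {F : Type u} [Field F] [Finite F] {φ : F ≃+* F}
variable {G : Type v} {Ω : Type w} [Group G] [Finite G] [MulAction G Ω] [Nonempty Ω] {N : Subgroup G}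
  {κ : P8 F →* G} {x₁ u : G}

/-- step 3: `u` in the long root group of `⟨e, w⟩`, `w ∈ Π` -/
theorem not_cov_root (h : ∀ a : F, φ (φ (φ a)) = a) (hG : Good (plusForm 4 F)) (hE : Env G Ω N)
    (hκ : Rp (plusForm 4 F) N κ) (h1 : La κ x₁ (xt hG (fG φ))) {e w : V8 F} (he : e ≠ 0) (hee : tw φ e e = 0)
    (hw : InP φ e w) (hwe : ∀ t : F, w ≠ t • e)
    (hcov : ∀ ω : Ω, up κ (ss (plusForm 4 F) e w) • ω = ω ∨ x₁ • ω = ω) : False := by
  have hQe := norm_of_abs h hee
  have hew := hw.polar h he hee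
  have hQw := hw.norm h he
  have hρ := hκ.rep
  set u : G := up κ (ss (plusForm 4 F) e w) with hu
  -- the vector `b₀`
  obtain ⟨b₀, hb1, hb2, hb3⟩ : ∃ b₀ : V8 F, plusForm 4 F b₀ = 0 ∧ QuadraticMap.polar (plusForm 4 F) e b₀ = 0 ∧
      QuadraticMap.polar (plusForm 4 F) w b₀ = 1 := by
    obtain ⟨c, hc1, hc2⟩ : ∃ c : V8 F, QuadraticMap.polar (plusForm 4 F) e c = 0 ∧
        QuadraticMap.polar (plusForm 4 F) w c ≠ 0 := by
      by_contra hcon
      push Not at hcon
      obtain ⟨t, ht⟩ := mem_of_perp he (v := w) fun c hc => by rw [polar_comm]; exact hcon c hc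
      exact hwe t ht
    set c' := (QuadraticMap.polar (plusForm 4 F) w c)⁻¹ • c with hc'
    have k1 : QuadraticMap.polar (plusForm 4 F) e c' = 0 := by rw [hc', polar_smul_right, hc1, smul_zero]
    have k2 : QuadraticMap.polar (plusForm 4 F) w c' = 1 := by
      rw [hc', polar_smul_right, smul_eq_mul, inv_mul_cancel₀ hc2]
    clear_value c'
    refine ⟨c' + (- plusForm 4 F c') • w, ?_, ?_, ?_⟩
    · rw [norm_add, QuadraticMap.map_smul, hQw, polar_smul_right, polar_comm _ c' w, k2]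
      simp
    · rw [polar_add_right, k1, polar_smul_right, hew, smul_zero, add_zero]
    · rw [polar_add_right, k2, polar_smul_right, QuadraticMap.polar_self, hQw, smul_zero, smul_zero, add_zero]
  set s : G := up κ (ss (plusForm 4 F) e b₀) with hs
  have hsu : s * u = u * s := by
    rw [hs, hu, ← map_mul, ← map_mul, ← ss_add hQe hb2 hew, ← ss_add hQe hew hb2, add_comm]
  set H : Subgroup G := Subgroup.centralizer {u} with hH
  have hmem : ∀ c : G, c ∈ H ↔ c * u = u * c := fun c => Subgroup.mem_centralizer_singleton_iff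
  have hz : s * x₁ * s⁻¹ * x₁⁻¹ ∈ H380.RC.cmm H x₁ := H380.RC.mem_cmm ((hmem s).2 hsu)
  have hLz : Lf (up κ) (s * x₁ * s⁻¹ * x₁⁻¹) (tg _ (ss (plusForm 4 F) e b₀) * (RG h hQe hb2)⁻¹) := by
    have e1 : s * x₁ * s⁻¹ * x₁⁻¹ = s * (x₁ * s * x₁⁻¹)⁻¹ := by group
    rw [e1]
    exact (Lf.tg _).mul (conj_ss h hG h1 hQe hb1 hb2).inv
  -- action on the plane
  have ri : ∀ v, Rw φ e b₀ v = 0 → (RG h hQe hb2)⁻¹.1 v = v := by
    intro v hv
    change v - Rw φ e b₀ v = v
    rw [hv, sub_zero]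
  have ae : (tg _ (ss (plusForm 4 F) e b₀) * (RG h hQe hb2)⁻¹).1 e = e := by
    change (tg _ (ss (plusForm 4 F) e b₀)).1 ((RG h hQe hb2)⁻¹.1 e) = e
    rw [ri e (by unfold Rw; rw [hee, tw_zero_left h]), tg_apply, ss_apply hQe hb2, QuadraticMap.polar_self, hQe,
      smul_zero, polar_comm _ b₀ e, hb2]
    simp
  have aw : (tg _ (ss (plusForm 4 F) e b₀) * (RG h hQe hb2)⁻¹).1 w = w - e := by
    change (tg _ (ss (plusForm 4 F) e b₀)).1 ((RG h hQe hb2)⁻¹.1 w) = w - e
    rw [ri w (by unfold Rw; rw [hw.left, tw_zero_left h]), tg_apply, ss_apply hQe hb2, hew, polar_comm _ b₀ w, hb3]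
    simp
  obtain ⟨σM, cM, hMS⟩ := (tg _ (ss (plusForm 4 F) e b₀) * (RG h hQe hb2)⁻¹).2
  have heL : e ∈ Submodule.span F {e, w} := Submodule.subset_span (by simp)
  have hwL : w ∈ Submodule.span F {e, w} := Submodule.subset_span (by simp)
  have hL : ∀ v ∈ Submodule.span F {e, w},
      (tg _ (ss (plusForm 4 F) e b₀) * (RG h hQe hb2)⁻¹).1 v ∈ Submodule.span F {e, w} := by
    intro v hv
    obtain ⟨p, q, rfl⟩ := Submodule.mem_span_pair.1 hv
    rw [hMS.add, hMS.smul, hMS.smul, ae, aw]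
    exact add_mem (Submodule.smul_mem _ _ heL) (Submodule.smul_mem _ _ (sub_mem hwL heL))
  rcases lr_mem_or hG hLz hQe hQw hew he hwe hL with h2 | ⟨a, d, hd, hM⟩
  · have h3 : H380.RC.cmm ((U (plusForm 4 F) (Submodule.span F {e, w})).map (up κ)) (s * x₁ * s⁻¹ * x₁⁻¹) ≤
        H380.RC.cmm H x₁ := by
      conv_lhs => rw [H380.RC.cmm]
      rw [Subgroup.closure_le]
      rintro _ ⟨c, ⟨k, hk, rfl⟩, rfl⟩
      exact H380.RC.cmm_comm ((hmem _).2 (ss_comm_U hQe hew hk)) hz
    have h4 : u ∈ H380.RC.cmm H x₁ := by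
      rw [hu, ss_eq hQe hew]
      exact h3 h2
    refine H380.RC.not_cov_one hE (x := x₁) (y := u) (U := H) hcov (fun c hc => (hmem c).1 hc) ?_ h4
    exact H106.RC.LrTwo.ss_ne hG hρ hQe hew he hwe
  · have haw : QuadraticMap.polar (plusForm 4 F) e (a • w) = 0 := by rw [polar_smul_right, hew, smul_zero]
    have h3 := hM e
    have h4 := hM w
    rw [ae, ss_apply hQe haw, QuadraticMap.polar_self, hQe, polar_smul_left, polar_comm _ w e, hew] at h3
    rw [aw, ss_apply hQe haw, hew, polar_smul_left, QuadraticMap.polar_self, hQw] at h4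
    have h5 : (1 - d) • e = 0 := by
      rw [sub_smul, one_smul, sub_eq_zero]
      simpa using h3
    have h6 : d = 1 := (sub_eq_zero.1 ((smul_eq_zero.1 h5).resolve_right he)).symm
    rw [h6] at h4
    have h7 : w - e = w := by simpa using h4
    exact he (by simpa using h7)

/-- **`k = 2`** -/
theorem core (h : ∀ a : F, φ (φ (φ a)) = a) (hφ : ∃ t, φ t ≠ t) (hG : Good (plusForm 4 F)) (hE : Env G Ω N)
    (hκ : Rp (plusForm 4 F) N κ) (h1 : La κ x₁ (xt hG (fG φ))) {M : G8 F} (hu : Lf (up κ) u M)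
    (hMs : IsSS (plusForm 4 F) (RingEquiv.refl F) 1 M.1) {g : V8 F ≃ₗ[F] V8 F} (hMg : ∀ v, M.1 v = g v)
    (hg : Au3 φ g) {p : ℕ} [Fact p.Prime] [CharP F p] (hgp : g ^ p = 1) (hg1 : g ≠ 1)
    (hcov : ∀ ω : Ω, x₁ • ω = ω ∨ u • ω = ω) : False := by
  obtain ⟨e, he, hee, hge⟩ := hg.exists_e h hgp hg1
  obtain ⟨y, hy, hye, t₀, hgy⟩ := hg.exists_y h hgp he hee hge
  obtain ⟨f, hf⟩ := exists_f he
  have hQe := norm_of_abs h hee
  have hey := hy.polar h he hee
  have hQy := hy.norm h he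
  have hρ := hκ.rep
  set y₁ := Rw φ e y f with hy₁
  have hy1 : InP φ e y₁ := Rw_inP h hee hy hey
  -- action of `g` on `y₁`
  have hgy1 : ∃ c : F, g y₁ = y₁ + c • e := by
    refine ⟨-QuadraticMap.polar (plusForm 4 F) y₁ (g f), ?_⟩
    have e1 : g y₁ = Rw φ e y (g f) := by
      rw [hy₁]
      unfold Rw
      rw [hg.mul, hg.mul, hge, hgy, tw_add_right h, tw_smul_right h, tw_tw h, hQe, map_zero, zero_smul, smul_zero,
        add_zero]
    have e2 := Rw_siegel h he hee hy hf (g f)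
    have e3 : QuadraticMap.polar (plusForm 4 F) e (g f) = 1 := by
      nth_rewrite 1 [← hge]
      rw [hg.polar, hf]
    rw [e3, one_smul] at e2
    rw [e1, e2, hy₁]
    module
  -- the scalar `t`
  obtain ⟨t, ht⟩ : ∃ t : F, ∀ c : F, φ t • y₁ + (-t) • y ≠ c • e := by
    by_contra hcon
    push Not at hcon
    obtain ⟨c, hc⟩ := hcon 1
    obtain ⟨t, ht⟩ := hφ
    obtain ⟨c', hc'⟩ := hcon t
    rw [map_one, one_smul] at hc
    have e1 : y₁ = y + c • e := by rw [← hc]; module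
    rw [e1] at hc'
    have e2 : (φ t - t) • y = (c' - φ t * c) • e := by
      rw [sub_smul c', ← hc']
      module
    have hne : φ t - t ≠ 0 := sub_ne_zero.2 ht
    apply hye ((φ t - t)⁻¹ * (c' - φ t * c))
    rw [mul_smul, ← e2, smul_smul, inv_mul_cancel₀ hne, one_smul]
  set w := φ t • y₁ + (-t) • y with hw
  have hwP : InP φ e w := (hy1.smul h _).add h (hy.smul h _)
  have hgw : ∃ c : F, g w = w + c • e := by
    obtain ⟨c, hc⟩ := hgy1
    refine ⟨φ t * c + (-t) * t₀, ?_⟩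
    rw [hw, map_add, map_smul, map_smul, hc, hgy]
    module
  have hMe : M.1 e = e := by rw [hMg, hge]
  -- `b` and its conjugate
  have hb1 : x₁ * up κ (ss (plusForm 4 F) e (t • y)) * x₁⁻¹ = up κ (ss (plusForm 4 F) e (φ t • y₁)) := by
    rw [conj_ss_inP h hG hE hκ h1 he hee (hy.smul h t) hf]
    congr 2
    rw [hy₁]
    unfold Rw
    rw [tw_smul_right h]
  have hbu : up κ (ss (plusForm 4 F) e (t • y)) * u = u * up κ (ss (plusForm 4 F) e (t • y)) := by
    have hty : QuadraticMap.polar (plusForm 4 F) e (t • y) = 0 := by rw [polar_smul_right, hey, smul_zero]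
    have e1 := hu (ss (plusForm 4 F) e (t • y))
    rw [conjE_ss hMs hQe hty, hMe, inv_one, one_smul, hMg, map_smul, hgy, smul_add, smul_smul,
      ss_add hQe hty (by rw [polar_smul_right, QuadraticMap.polar_self, hQe, smul_zero, smul_zero]), ss_self hQe,
      mul_one, mul_inv_eq_iff_eq_mul] at e1
    exact e1.symm
  have hd : (up κ (ss (plusForm 4 F) e (t • y)))⁻¹ * (x₁ * up κ (ss (plusForm 4 F) e (t • y)) * x₁⁻¹) =
      up κ (ss (plusForm 4 F) e w) := by
    have hty : QuadraticMap.polar (plusForm 4 F) e (t • y) = 0 := by rw [polar_smul_right, hey, smul_zero]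
    have hty' : QuadraticMap.polar (plusForm 4 F) e ((-t) • y) = 0 := by rw [polar_smul_right, hey, smul_zero]
    have hty1 : QuadraticMap.polar (plusForm 4 F) e (φ t • y₁) = 0 := by
      rw [polar_smul_right, hy1.polar h he hee, smul_zero]
    rw [hb1, ← map_inv, ← map_mul, ← ss_neg hQe hty, hw, ← neg_smul, ← ss_add hQe hty' hty1, add_comm]
  have hcov2 : ∀ ω : Ω, up κ (ss (plusForm 4 F) e w) • ω = ω ∨ u • ω = ω := by
    intro ω
    by_cases huω : u • ω = ω
    · exact Or.inr huω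
    · left
      have k1 : x₁ • ω = ω := (hcov ω).resolve_right huω
      have k2 : u • up κ (ss (plusForm 4 F) e (t • y)) • ω ≠ up κ (ss (plusForm 4 F) e (t • y)) • ω := by
        intro hc
        rw [← mul_smul, ← hbu, mul_smul] at hc
        exact huω (MulAction.injective _ hc)
      have k3 := (hcov (up κ (ss (plusForm 4 F) e (t • y)) • ω)).resolve_right k2
      have k4 : x₁⁻¹ • ω = ω := by rw [inv_smul_eq_iff, k1]
      rw [← hd, mul_smul, mul_smul, k4, mul_smul, k3, inv_smul_smul]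
  -- `u` is in the root group
  by_cases hx : ∃ a : F, u = up κ (ss (plusForm 4 F) e (a • w))
  · obtain ⟨a, ha⟩ := hx
    have ha0 : a ≠ 0 := by
      intro h0
      rw [h0, zero_smul, ss_zero hQe, map_one] at ha
      obtain ⟨c, hc, hMc⟩ := (hu.eq_one_iff hG hE hρ).1 ha
      have e1 := hMc e
      rw [hMe] at e1
      have e2 : (c - 1) • e = 0 := by rw [sub_smul, one_smul, ← e1, sub_self]
      have e3 : c = 1 := sub_eq_zero.1 ((smul_eq_zero.1 e2).resolve_right he)
      apply hg1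
      apply LinearEquiv.ext
      intro v
      rw [← hMg, hMc, e3, one_smul]; rfl
    refine not_cov_root (Ω := Ω) h hG hE hκ h1 he hee (hwP.smul h a) ?_ ?_
    · intro c hc
      apply ht (a⁻¹ * c)
      rw [mul_smul, ← hc, smul_smul, inv_mul_cancel₀ ha0, one_smul]
    · intro ω
      rw [← ha]
      exact (hcov ω).symm
  · push Not at hx
    have heL : e ∈ Submodule.span F {e, w} := Submodule.subset_span (by simp)
    have hwL : w ∈ Submodule.span F {e, w} := Submodule.subset_span (by simp)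
    refine box_LR1 hG hE hρ hu hQe (hwP.norm h he) (hwP.polar h he hee) he ht ?_ hx hcov2
    intro v hv
    obtain ⟨p, q, rfl⟩ := Submodule.mem_span_pair.1 hv
    obtain ⟨c, hc⟩ := hgw
    rw [hMg, map_add, map_smul, map_smul, hge, hc]
    exact add_mem (Submodule.smul_mem _ _ heL) (Submodule.smul_mem _ _ (add_mem hwL (Submodule.smul_mem _ _ heL)))

end main

section stub

open Cfsg.Agent.H864.RC

variable {F : Type} [Field F] {G Ω ι : Type} [Group G] [MulAction G Ω] {N : Subgroup G}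
  {hG : Good (plusForm 4 F)} {κ : P8 F →* G} {s : F ≃+* F} {x₁ : G} {x : ι → G} {r : ι → ℕ}
  {g : ι → (V8 F ≃ₗ[F] V8 F)}

/-- one member `u` of order `p` and nothing else -/
theorem dead_k2 [Finite F] [Finite G] [Finite ι] [Nonempty Ω] {p : ℕ} [CharP F p]
    (h : T3 hG N κ s Ω x₁ x r g) (_hN : NoN Ω N) (i₀ : ι) (hi : r i₀ = p) (hall : ∀ i, i = i₀) : False := by
  have hp : Fact p.Prime := ⟨by rw [← hi]; exact h.prime i₀⟩
  have hφ : ∃ t, s t ≠ t := by
    by_contra hcon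
    push Not at hcon
    exact h.ne (RingEquiv.ext hcon)
  have hgE := (h.mem i₀).1
  have hu : Lf (up κ) (x i₀) (tg _ ⟨g i₀, hgE⟩) := by
    rw [h.x_eq]; exact Lf.tg _
  refine core (M := tg _ ⟨g i₀, hgE⟩) (g := g i₀) (p := p) h.cube hφ hG h.env h.rp h.tri hu ?_ (fun v => rfl)
    ⟨fun v => E_le_O hgE v, fun u w => (h.mem i₀).2 u w⟩ (by rw [← hi]; exact h.pow i₀) (h.ne1 i₀) ?_
  · exact ⟨one_ne_zero, fun u v => map_add (g i₀) u v, fun a v => map_smul (g i₀) a v, fun v => by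
      rw [one_mul]; exact E_le_O hgE v⟩
  · intro ω
    rcases h.cov ω with h2 | ⟨i, hi2⟩
    · exact Or.inl h2
    · right
      rw [hall i] at hi2
      exact hi2

end stub

end Cfsg.Agent.H195.RC
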