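import Cfsg.Agent.H195.RC.TwK2

/-!
# S3510, triality of type iii: a member of the family is a long root element (helper195)

`u = siegel e w` commutes with `x₁`: `⟨e, w⟩ ⋄ ⟨e, w⟩ = 0`, `x₁` normalises the long root group `X` and does not centralise it,
all other members centralise it; `box_LR2`.
-/

set_option autoImplicit false
set_option linter.unusedSectionVars false
open Cfsg

namespace Cfsg.Agent.H195.RC

open Module QuadraticMap Cfsg.Agent.LieClassical.OrthCore Cfsg.Agent.LieClassical.OrthTrans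
  Cfsg.Agent.LieClassical.OrthSimple Cfsg.Agent.ClassicalGeometry.OrthAut1
  Cfsg.Agent.ClassicalGeometry.OrthSemi
  Cfsg.Agent.LieClassical.QuadForms 
  Cfsg.Agent.ClassicalGeometry.TrialityOct Cfsg.Agent.ClassicalGeometry.Triality
  Cfsg.Agent.ClassicalGeometry.TrialitySpaces Cfsg.Agent.H198.TriBase Cfsg.Agent.H198.TriAut
  Cfsg.Agent.H206.Balance Cfsg.Agent.H198.TriDia Cfsg.Agent.H106.RC Cfsg.Agent.H93.RC Cfsg.Agent.H566.RC
open Cfsg.Agent.H297.RC (ss ss_eq ss_add ss_neg ss_zero conjE_ss)
open Cfsg.Agent.H106.RC.LrTwo (lr_mem_or box_LR1 box_LR2 ss_comm_U)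

universe u v w

/-! ### isometries with a totally singular two-dimensional commutator -/

section lin

variable {F : Type u} [Field F]

/-- two independent vectors have a dual pair -/
theorem exists_dual {e w : V8 F} (he : e ≠ 0) (hw : ∀ t : F, w ≠ t • e) :
    ∃ e' w' : V8 F, polar (plusForm 4 F) e e' = 1 ∧ polar (plusForm 4 F) w e' = 0 ∧
      polar (plusForm 4 F) e w' = 0 ∧ polar (plusForm 4 F) w w' = 1 := by
  have key : ∀ (a b : V8 F), a ≠ 0 → (∀ t : F, b ≠ t • a) →
      ∃ c : V8 F, polar (plusForm 4 F) a c = 0 ∧ polar (plusForm 4 F) b c = 1 := by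
    intro a b ha hb
    by_contra hcon
    push Not at hcon
    obtain ⟨t, ht⟩ := mem_of_perp ha (v := b) fun c hc => by
      by_contra h0
      rw [polar_comm] at h0
      apply hcon ((polar (plusForm 4 F) b c)⁻¹ • c)
      · rw [polar_smul_right, hc, smul_zero]
      · rw [polar_smul_right, smul_eq_mul, inv_mul_cancel₀ h0]
    exact hb t ht
  obtain ⟨w', h1, h2⟩ := key e w he hw
  have hw0 : w ≠ 0 := fun h0 => hw 0 (by rw [h0, zero_smul])
  obtain ⟨e', h3, h4⟩ := key w e hw0 (fun t ht => by
    by_cases h0 : t = 0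
    · rw [h0, zero_smul] at ht; exact he ht
    · exact hw t⁻¹ (by rw [ht, smul_smul, inv_mul_cancel₀ h0, one_smul]))
  exact ⟨e', w', h4, h3, h1, h2⟩

/-- an isometry with `[V, u]` totally singular of dimension two is a long root element -/
theorem exists_long {u : V8 F ≃ₗ[F] V8 F} (hu : ∀ v, plusForm 4 F (u v) = plusForm 4 F v)
    (h2 : finrank F (LinearMap.range ((u : V8 F →ₗ[F] V8 F) - LinearMap.id)) = 2)
    (hs : ∀ v, plusForm 4 F (u v - v) = 0) :
    ∃ e w : V8 F, e ≠ 0 ∧ (∀ t : F, w ≠ t • e) ∧ plusForm 4 F e = 0 ∧ plusForm 4 F w = 0 ∧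
      polar (plusForm 4 F) e w = 0 ∧
      ∀ v, u v = v + (polar (plusForm 4 F) e v • w - polar (plusForm 4 F) w v • e) := by
  set N := (u : V8 F →ₗ[F] V8 F) - LinearMap.id with hN
  have hNa : ∀ v, N v = u v - v := fun v => rfl
  have hup : ∀ x y, polar (plusForm 4 F) (u x) (u y) = polar (plusForm 4 F) x y := by
    intro x y
    rw [QuadraticMap.polar, QuadraticMap.polar, ← map_add, hu, hu, hu]
  -- basis of the range
  obtain ⟨e, w, he, hw, ⟨ze, hze⟩, ⟨zw, hzw⟩, hr⟩ : ∃ e w : V8 F, e ≠ 0 ∧ (∀ t : F, w ≠ t • e) ∧ (∃ z, N z = e) ∧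
      (∃ z, N z = w) ∧ ∀ v, ∃ a b : F, N v = a • e + b • w := by
    let B := Module.finBasisOfFinrankEq F (LinearMap.range N) h2
    refine ⟨B 0, B 1, ?_, ?_, (B 0).2, (B 1).2, ?_⟩
    · intro h0
      exact B.ne_zero 0 (Subtype.ext h0)
    · intro t ht
      have h4 : B 1 = t • B 0 := Subtype.ext ht
      have h5 := congrArg (fun z => B.repr z 1) h4
      simp at h5
    · intro v
      have h3 := B.sum_repr ⟨N v, v, rfl⟩
      rw [Fin.sum_univ_two] at h3
      exact ⟨_, _, (congrArg Subtype.val h3).symm⟩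
  have hNN : ∀ x y, polar (plusForm 4 F) (N x) (N y) = 0 := by
    intro x y
    rw [QuadraticMap.polar, ← map_add, hNa, hNa, hNa, hs, hs, hs]
    simp
  have hskew : ∀ x y, polar (plusForm 4 F) (N x) y = - polar (plusForm 4 F) x (N y) := by
    intro x y
    have h3 := hup x y
    have e1 : u x = x + N x := by rw [hNa]; abel
    have e2 : u y = y + N y := by rw [hNa]; abel
    rw [e1, e2, polar_add_left, polar_add_right, polar_add_right, hNN] at h3
    linear_combination h3
  have halt : ∀ x, polar (plusForm 4 F) x (N x) = 0 := by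
    intro x
    have h3 := hu x
    have e1 : u x = x + N x := by rw [hNa]; abel
    rw [e1, norm_add, hNa, hs] at h3
    linear_combination h3
  have hQe : plusForm 4 F e = 0 := by rw [← hze, hNa, hs]
  have hQw : plusForm 4 F w = 0 := by rw [← hzw, hNa, hs]
  have hew : polar (plusForm 4 F) e w = 0 := by rw [← hze, ← hzw, hNN]
  obtain ⟨e', w', h11, h12, h21, h22⟩ := exists_dual he hw
  obtain ⟨α, β, h3⟩ := hr e'
  obtain ⟨γ, δ, h4⟩ := hr w'
  have k1 : ∀ v, N v = (-(α * polar (plusForm 4 F) v e + β * polar (plusForm 4 F) v w)) • e +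
      (-(γ * polar (plusForm 4 F) v e + δ * polar (plusForm 4 F) v w)) • w := by
    intro v
    obtain ⟨a, b, hab⟩ := hr v
    have e1 := hskew v e'
    have e2 := hskew v w'
    rw [hab, h3, polar_add_left, polar_smul_left, polar_smul_left, h11, h12, polar_add_right, polar_smul_right,
      polar_smul_right] at e1
    rw [hab, h4, polar_add_left, polar_smul_left, polar_smul_left, h21, h22, polar_add_right, polar_smul_right,
      polar_smul_right] at e2
    simp only [smul_eq_mul, mul_one, mul_zero, add_zero, zero_add] at e1 e2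
    rw [hab, e1, e2]
  have c1 : polar (plusForm 4 F) e' e = 1 := by rw [polar_comm]; exact h11
  have c2 : polar (plusForm 4 F) e' w = 0 := by rw [polar_comm]; exact h12
  have c3 : polar (plusForm 4 F) w' e = 0 := by rw [polar_comm]; exact h21
  have c4 : polar (plusForm 4 F) w' w = 1 := by rw [polar_comm]; exact h22
  have hα : α = 0 := by
    have := halt e'
    rw [h3, polar_add_right, polar_smul_right, polar_smul_right, c1, c2] at this
    simpa using this
  have hδ : δ = 0 := by
    have := halt w'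
    rw [h4, polar_add_right, polar_smul_right, polar_smul_right, c3, c4] at this
    simpa using this
  have hβ : γ = -β := by
    have := halt (e' + w')
    rw [map_add, h3, h4, polar_add_right, polar_add_left, polar_add_left, polar_add_right, polar_add_right,
      polar_add_right, polar_add_right] at this
    simp only [polar_smul_right, c1, c2, c3, c4, smul_eq_mul, mul_one, mul_zero, add_zero, zero_add] at this
    rw [hα, hδ] at this
    linear_combination this
  have k2 : ∀ v, N v = polar (plusForm 4 F) e v • (β • w) - polar (plusForm 4 F) (β • w) v • e := by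
    intro v
    rw [k1, hα, hδ, hβ, polar_smul_left, polar_comm _ v e, polar_comm _ v w]
    simp only [smul_eq_mul]
    module
  have hβ0 : β ≠ 0 := by
    intro h0
    apply he
    rw [← hze, k2, h0, zero_smul, smul_zero, polar_zero_left, zero_smul, sub_zero]
  refine ⟨e, β • w, he, ?_, hQe, ?_, ?_, ?_⟩
  · intro t ht
    apply hw (β⁻¹ * t)
    rw [mul_smul, ← ht, smul_smul, inv_mul_cancel₀ hβ0, one_smul]
  · rw [QuadraticMap.map_smul, hQw, smul_zero]
  · rw [polar_smul_right, hew, smul_zero]
  · intro v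
    rw [← k2, hNa]; abel

variable {φ : F ≃+* F} (h : ∀ a : F, φ (φ (φ a)) = a)

include h

/-- the kernel of `e ⋄ ·` has dimension at least four -/
theorem exists_ker {e w : V8 F} (he : e ≠ 0) (hQe : plusForm 4 F e = 0) :
    ∃ z : V8 F, tw φ e z = 0 ∧ z ∉ Submodule.span F {e, w} := by
  by_contra hcon
  push Not at hcon
  let T : V8 F →ₗ[F] V8 F :=
    { toFun := fun z => cf φ (cf φ (tw φ e z))
      map_add' := fun a b => by rw [tw_add_right h, cf_add, cf_add]
      map_smul' := fun c a => by rw [tw_smul_right h, cf_smul, cf_smul, h]; rfl }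
  have hTa : ∀ z, T z = cf φ (cf φ (tw φ e z)) := fun _ => rfl
  have h1 := LinearMap.finrank_range_add_finrank_ker T
  have h8 : finrank F (V8 F) = 8 := by
    rw [Module.finrank_pi, Fintype.card_sum, Fintype.card_fin]
  have h2 : finrank F (LinearMap.range T) ≤ 4 := by
    apply finrank_le_four
    rintro _ ⟨z, rfl⟩
    rw [hTa, cf_norm, cf_norm, tw_norm h, hQe]
    simp
  have h3 : LinearMap.ker T ≤ Submodule.span F {e, w} := by
    intro z hz
    apply hcon
    have h5 : cf φ (cf φ (tw φ e z)) = 0 := hz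
    have := congrArg (cf φ) h5
    rw [cf3 h] at this
    rw [this]
    funext i
    exact map_zero φ
  have h4 := (Submodule.finrank_mono h3).trans (H297.RC.finrank_pair_le e w)
  omega

end lin

/-! ### the case of a long root element -/

section main

variable {F : Type u} [Field F] [Finite F] {φ : F ≃+* F}
variable {G : Type v} {Ω : Type w} [Group G] [Finite G] [MulAction G Ω] [Nonempty Ω] {N : Subgroup G}
  {κ : P8 F →* G} {x₁ : G}

/-- a long root element commuting with `x₁` : the products of `e`, `w` vanish -/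
theorem inP_of_comm (h : ∀ a : F, φ (φ (φ a)) = a) (hG : Good (plusForm 4 F))
    (hκ : Rp (plusForm 4 F) N κ) (h1 : La κ x₁ (xt hG (fG φ))) {e w : V8 F} (he : e ≠ 0)
    (hwe : ∀ t : F, w ≠ t • e) (hQe : plusForm 4 F e = 0) (hQw : plusForm 4 F w = 0)
    (hew : polar (plusForm 4 F) e w = 0)
    (hc : x₁ * up κ (ss (plusForm 4 F) e w) = up κ (ss (plusForm 4 F) e w) * x₁) :
    tw φ e e = 0 ∧ InP φ e w := by
  have h2 := conj_ss h hG h1 hQe hQw hew
  rw [hc, mul_inv_cancel_right] at h2
  have h3 : Lf (up κ) (up κ (ss (plusForm 4 F) e w)) (tg _ (ss (plusForm 4 F) e w)) := Lf.tg _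
  have h4 := h2.mul h3.inv
  rw [mul_inv_cancel] at h4
  obtain ⟨c, hc0, hcs⟩ := (h4.scal_iff hG hκ.rep).2 (fun t => by simp)
  have h5 : ∀ v, v + Rw φ e w v = c • (v + (polar (plusForm 4 F) e v • w - polar (plusForm 4 F) w v • e)) := by
    intro v
    have h6 := hcs ((tg _ (ss (plusForm 4 F) e w)).1 v)
    change (RG h hQe hew).1 ((tg _ (ss (plusForm 4 F) e w))⁻¹.1 ((tg _ (ss (plusForm 4 F) e w)).1 v)) = _ at h6
    have h7 : (tg _ (ss (plusForm 4 F) e w))⁻¹.1 ((tg _ (ss (plusForm 4 F) e w)).1 v) = v :=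
      (tg _ (ss (plusForm 4 F) e w)).1.symm_apply_apply v
    rw [h7, tg_apply, ss_apply hQe hew, hQw, zero_mul, zero_smul, sub_zero, add_sub_assoc] at h6
    exact h6
  have hee0 : polar (plusForm 4 F) e e = 0 := by rw [QuadraticMap.polar_self, hQe, smul_zero]
  have hwe0 : polar (plusForm 4 F) w e = 0 := by rw [polar_comm]; exact hew
  have hRe : Rw φ e w e = (c - 1) • e := by
    have := h5 e
    rw [hee0, hwe0, zero_smul, zero_smul, sub_zero, add_zero] at this
    rw [sub_smul, one_smul, ← this]; abel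
  have hc1 : c = 1 := by
    have h6 := Rw_Rw h hQe hew e
    rw [hRe, Rw_smul h, hRe, smul_smul] at h6
    have h7 := (smul_eq_zero.1 h6).resolve_right he
    exact sub_eq_zero.1 (mul_self_eq_zero.1 h7)
  have h8 : ∀ v, Rw φ e w v = polar (plusForm 4 F) e v • w - polar (plusForm 4 F) w v • e := by
    intro v
    have := h5 v
    rw [hc1, one_smul] at this
    exact add_left_cancel this
  obtain ⟨e', w', d1, d2, d3, d4⟩ := exists_dual he hwe
  have he' : Rw φ e w e' = w := by rw [h8, d1, d2]; simp
  have hw' : Rw φ e w w' = -e := by rw [h8, d3, d4]; simp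
  have l1 : ∀ v, tw φ w (Rw φ e w v) = 0 := by
    intro v
    unfold Rw
    rw [tw_tw' h, hQw]; simp
  have l2 : ∀ v, tw φ e (Rw φ e w v) = 0 := by
    intro v
    rw [Rw_anti h hew]
    unfold Rw
    rw [tw_neg_right h, tw_tw' h, hQe]; simp
  have r1 : tw φ w e = 0 := by
    have := l1 w'
    rw [hw', tw_neg_right h] at this
    exact neg_eq_zero.1 this
  have r2 : tw φ e w = 0 := by
    have := l2 e'
    rwa [he'] at this
  have r3 : tw φ e e = 0 := by
    have := l2 w'
    rw [hw', tw_neg_right h] at this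
    exact neg_eq_zero.1 this
  exact ⟨r3, r2, r1⟩

end main

section stub

open Cfsg.Agent.H864.RC

variable {F : Type} [Field F] {G Ω ι : Type} [Group G] [MulAction G Ω] {N : Subgroup G}
  {hG : Good (plusForm 4 F)} {κ : P8 F →* G} {s : F ≃+* F} {x₁ : G} {x : ι → G} {r : ι → ℕ}
  {g : ι → (V8 F ≃ₗ[F] V8 F)}

/-- **a member `u` of order `p` which is a long root element** -/
theorem dead_long [Finite F] [Finite G] [Finite ι] [Nonempty Ω] {p : ℕ} [CharP F p]
    (h : T3 hG N κ s Ω x₁ x r g) (i₀ : ι) (hi : r i₀ = p)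
    (h2 : finrank F (LinearMap.range ((g i₀ : V8 F →ₗ[F] V8 F) - LinearMap.id)) = 2)
    (hs : ∀ v, plusForm 4 F (g i₀ v - v) = 0) : False := by
  have h3 := h.cube
  have hρ := h.rp.rep
  obtain ⟨t, ht⟩ : ∃ t, s t ≠ t := by
    by_contra hcon
    push Not at hcon
    exact h.ne (RingEquiv.ext hcon)
  have hgE : ∀ i, g i ∈ E (plusForm 4 F) := fun i => (h.mem i).1
  obtain ⟨e, w, he, hwe, hQe, hQw, hew, hu⟩ := exists_long (fun v => E_le_O (hgE i₀) v) h2 hs
  have hgs : (⟨g i₀, hgE i₀⟩ : ↥(E (plusForm 4 F))) = ss (plusForm 4 F) e w := by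
    apply Subtype.ext
    apply LinearEquiv.ext
    intro v
    rw [ss_apply hQe hew, hQw, zero_mul, zero_smul, sub_zero, add_sub_assoc]
    exact hu v
  have hx0 : x i₀ = up κ (ss (plusForm 4 F) e w) := by rw [h.x_eq, hgs]
  have hcx : x₁ * up κ (ss (plusForm 4 F) e w) = up κ (ss (plusForm 4 F) e w) * x₁ := by
    rw [← hx0]; exact h.x1_comm i₀
  obtain ⟨hee, hw⟩ := inP_of_comm h3 hG h.rp h.tri he hwe hQe hQw hew hcx
  obtain ⟨f, hf⟩ := exists_f he
  -- `x₁` on the root group
  have hb : ∀ t : F, x₁ * up κ (ss (plusForm 4 F) e (t • w)) * x₁⁻¹ = up κ (ss (plusForm 4 F) e (s t • w)) := by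
    intro t
    rw [conj_ss_inP h3 hG h.env h.rp h.tri he hee (hw.smul h3 t) hf]
    have e1 : Rw s e (t • w) f = s t • Rw s e w f := by
      unfold Rw
      rw [tw_smul_right h3]
    have hR := Rw_inP h3 (f := f) hee hw hew
    have e2 := conj_ss_inP h3 hG h.env h.rp h.tri he hee hw hf
    rw [hcx, mul_inv_cancel_right] at e2
    -- `ss e w` and `ss e (R f)` have the same image
    have e3 : Lf (up κ) (up κ (ss (plusForm 4 F) e w) * (up κ (ss (plusForm 4 F) e (Rw s e w f)))⁻¹)
        (tg _ (ss (plusForm 4 F) e w) * (tg _ (ss (plusForm 4 F) e (Rw s e w f)))⁻¹) := (Lf.tg _).mul (Lf.tg _).inv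
    rw [e2, mul_inv_cancel] at e3
    obtain ⟨c, hc0, hcs⟩ := (e3.scal_iff hG hρ).2 (fun t => by simp)
    have e5 : ∀ v, (ss (plusForm 4 F) e w : V8 F ≃ₗ[F] V8 F) v =
        c • (ss (plusForm 4 F) e (Rw s e w f) : V8 F ≃ₗ[F] V8 F) v := by
      intro v
      have h6 := hcs ((tg _ (ss (plusForm 4 F) e (Rw s e w f))).1 v)
      change (tg _ (ss (plusForm 4 F) e w)).1 ((tg _ (ss (plusForm 4 F) e (Rw s e w f)))⁻¹.1
        ((tg _ (ss (plusForm 4 F) e (Rw s e w f))).1 v)) = _ at h6
      have h7 : (tg _ (ss (plusForm 4 F) e (Rw s e w f)))⁻¹.1 ((tg _ (ss (plusForm 4 F) e (Rw s e w f))).1 v) = v :=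
        (tg _ (ss (plusForm 4 F) e (Rw s e w f))).1.symm_apply_apply v
      rw [h7] at h6
      exact h6
    have hee0 : polar (plusForm 4 F) e e = 0 := by rw [QuadraticMap.polar_self, hQe, smul_zero]
    have hc1 : c = 1 := by
      have e6 := e5 e
      rw [ss_apply hQe hew, ss_apply hQe (hR.polar h3 he hee), hee0, polar_comm _ w e, hew,
        polar_comm _ (Rw s e w f) e, hR.polar h3 he hee] at e6
      have e7 : (1 - c) • e = 0 := by
        rw [sub_smul, one_smul, sub_eq_zero]
        simpa using e6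
      exact (sub_eq_zero.1 ((smul_eq_zero.1 e7).resolve_right he)).symm
    have e8 : w - Rw s e w f = (polar (plusForm 4 F) w f - polar (plusForm 4 F) (Rw s e w f) f) • e := by
      have e6 := e5 f
      rw [hc1, one_smul, ss_apply hQe hew, ss_apply hQe (hR.polar h3 he hee), hf, hQw, hR.norm h3 he] at e6
      simp only [one_smul, zero_mul, zero_smul, sub_zero] at e6
      rw [sub_smul]
      have e9 : w - polar (plusForm 4 F) w f • e = Rw s e w f - polar (plusForm 4 F) (Rw s e w f) f • e := by
        have e10 : f + w - polar (plusForm 4 F) w f • e = f + (w - polar (plusForm 4 F) w f • e) := by abel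
        have e11 : f + Rw s e w f - polar (plusForm 4 F) (Rw s e w f) f • e =
            f + (Rw s e w f - polar (plusForm 4 F) (Rw s e w f) f • e) := by abel
        rw [e10, e11] at e6
        exact add_left_cancel e6
      rw [sub_eq_sub_iff_add_eq_add] at e9
      rw [sub_eq_sub_iff_add_eq_add, e9]
      abel
    have hsw : polar (plusForm 4 F) e (s t • w) = 0 := by rw [polar_smul_right, hew, smul_zero]
    rw [e1]
    congr 1
    set k := polar (plusForm 4 F) w f - polar (plusForm 4 F) (Rw s e w f) f with hk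
    have e12 : Rw s e w f = w + (-k) • e := by
      rw [neg_smul, ← e8]; abel
    rw [e12, smul_add, smul_smul, ss_add hQe hsw (by rw [polar_smul_right, hee0, smul_zero]), ss_self hQe, mul_one]
  -- the members centralise the root group
  have hgL : ∀ i, ∀ v ∈ Submodule.span F {e, w}, g i v ∈ Submodule.span F {e, w} := by
    intro i
    have key : ∀ v, g i (g i₀ v - v) ∈ Submodule.span F {e, w} := by
      intro v
      have e1 : g i (g i₀ v - v) = g i₀ (g i v) - g i v := by
        rw [map_sub]
        congr 1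
        exact LinearEquiv.congr_fun (h.comm i i₀) v
      rw [e1, hu]
      have e2 : g i v + (polar (plusForm 4 F) e (g i v) • w - polar (plusForm 4 F) w (g i v) • e) - g i v =
          polar (plusForm 4 F) e (g i v) • w - polar (plusForm 4 F) w (g i v) • e := by abel
      rw [e2]
      exact sub_mem (Submodule.smul_mem _ _ (Submodule.subset_span (by simp)))
        (Submodule.smul_mem _ _ (Submodule.subset_span (by simp)))
    obtain ⟨e', w', d1, d2, d3, d4⟩ := exists_dual he hwe
    have k1 : g i₀ e' - e' = w := by rw [hu, d1, d2]; simp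
    have k2 : g i₀ w' - w' = -e := by rw [hu, d3, d4]; simp
    intro v hv
    obtain ⟨a, b, rfl⟩ := Submodule.mem_span_pair.1 hv
    rw [map_add, map_smul, map_smul]
    refine add_mem (Submodule.smul_mem _ _ ?_) (Submodule.smul_mem _ _ ?_)
    · have := key w'
      rw [k2, map_neg] at this
      exact (Submodule.neg_mem_iff _).1 this
    · have := key e'
      rwa [k1] at this
  have hcent : ∀ (i : ι) (t : F), up κ (ss (plusForm 4 F) e (t • w)) * x i = x i * up κ (ss (plusForm 4 F) e (t • w)) := by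
    intro i t
    have htw : polar (plusForm 4 F) e (t • w) = 0 := by rw [polar_smul_right, hew, smul_zero]
    rw [h.x_eq, ← map_mul, ← map_mul]
    congr 1
    apply Subtype.ext
    apply LinearEquiv.ext
    intro v
    change (ss (plusForm 4 F) e (t • w) : V8 F ≃ₗ[F] V8 F) (g i v) =
      g i ((ss (plusForm 4 F) e (t • w) : V8 F ≃ₗ[F] V8 F) v)
    have e1 : g i₀ (g i v) = g i (g i₀ v) := (LinearEquiv.congr_fun (h.comm i i₀) v).symm
    rw [hu, hu, map_add] at e1
    have e2 := add_left_cancel e1
    rw [ss_apply hQe htw, ss_apply hQe htw, QuadraticMap.map_smul, hQw, smul_zero, zero_mul, zero_smul, sub_zero,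
      zero_mul, zero_smul, sub_zero, add_sub_assoc, add_sub_assoc, map_add]
    congr 1
    have e3 : ∀ v : V8 F, polar (plusForm 4 F) e v • t • w - polar (plusForm 4 F) (t • w) v • e =
        t • (polar (plusForm 4 F) e v • w - polar (plusForm 4 F) w v • e) := by
      intro v
      rw [polar_smul_left]
      simp only [smul_eq_mul]
      module
    rw [e3, e3, map_smul, e2]
  -- the cover
  have hd : (up κ (ss (plusForm 4 F) e (t • w)))⁻¹ * (x₁ * up κ (ss (plusForm 4 F) e (t • w)) * x₁⁻¹) =
      up κ (ss (plusForm 4 F) e ((s t - t) • w)) := by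
    have h4 : ∀ c : F, polar (plusForm 4 F) e (c • w) = 0 := fun c => by rw [polar_smul_right, hew, smul_zero]
    rw [hb, ← map_inv, ← map_mul, ← ss_neg hQe (h4 t), ← neg_smul, ← ss_add hQe (h4 _) (h4 _), ← add_smul]
    congr 3
    ring
  obtain ⟨z, hz1, hz2⟩ := exists_ker h3 (w := w) he hQe
  have hez : polar (plusForm 4 F) z e = 0 := by
    have := tw_tw' h3
    have h5 : QuadraticMap.polar (plusForm 4 F) z e = 0 := by
      rw [QuadraticMap.polar, norm_of_left h3 he hz1, hQe,
        norm_of_left h3 he (z := z + e) (by rw [tw_add_right h3, hz1, hee, add_zero])]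
      simp
    exact h5
  have hzw : polar (plusForm 4 F) z w = 0 := by
    rw [QuadraticMap.polar, norm_of_left h3 he hz1, hQw,
      norm_of_left h3 he (z := z + w) (by rw [tw_add_right h3, hz1, hw.left, add_zero])]
    simp
  refine box_LR2 (ι := {i : ι // i ≠ i₀}) (p := p) (y := fun i => x i.1) (M := fun i => tg _ ⟨g i.1, hgE i.1⟩)
    (r := fun i => r i.1) (a := s t - t) (b := 1) hG h.env hρ (fun i => ?_) (fun i => h.prime i.1)
    (fun i hip => i.2 (h.inj (hip.trans hi.symm))) (fun i => h.x_pow i.1) (fun i => h.x_ne i.1)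
    (fun i j => h.x_comm i.1 j.1) hQe hQw hew he hwe (fun i v hv => hgL i.1 v hv)
    (norm_of_left h3 he hz1) hez hzw hz2 (sub_ne_zero.2 ht) one_ne_zero ?_
  · rw [h.x_eq]; exact Lf.tg _
  · intro ω
    rw [one_smul, ← hx0, ← hd]
    by_cases hω : ∃ i, x i • ω = ω
    · obtain ⟨i, hi'⟩ := hω
      by_cases hii : i = i₀
      · rw [hii] at hi'; exact Or.inr (Or.inl hi')
      · exact Or.inr (Or.inr ⟨⟨i, hii⟩, hi'⟩)
    · left
      push Not at hω
      have k1 : x₁ • ω = ω := (h.cov ω).resolve_right (fun ⟨i, hi'⟩ => hω i hi')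
      have k3 : x₁ • up κ (ss (plusForm 4 F) e (t • w)) • ω = up κ (ss (plusForm 4 F) e (t • w)) • ω := by
        rcases h.cov (up κ (ss (plusForm 4 F) e (t • w)) • ω) with h5 | ⟨i, h5⟩
        · exact h5
        · exfalso
          rw [← mul_smul, ← hcent, mul_smul] at h5
          exact hω i (MulAction.injective _ h5)
      have k4 : x₁⁻¹ • ω = ω := by rw [inv_smul_eq_iff, k1]
      rw [mul_smul, mul_smul, k4, mul_smul, k3, inv_smul_smul]

end stub

end Cfsg.Agent.H195.RC
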