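import Cfsg.Agent.H195.RC.Tw
import Cfsg.Agent.H566.RC.TriFrame

/-!
# S3510, triality of type iii: the image of a long root element (helper195)

`g = siegel a b` (`a`, `b` singular, orthogonal): `g (x ⋄ z) = (x + (a ⋄ x) ⋄ b) ⋄ (z - a ⋄ (z ⋄ b))`, so
`x₁ g x₁⁻¹ = 1 + R_{a,b}`, `R_{a,b} x = (a ⋄ x) ⋄ b`.
-/

set_option autoImplicit false
set_option linter.unusedSectionVars false

namespace Cfsg.Agent.H195.RC

open Module QuadraticMap Cfsg.Agent.LieClassical.OrthCore Cfsg.Agent.LieClassical.OrthTrans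
  Cfsg.Agent.LieClassical.OrthSimple Cfsg.Agent.ClassicalGeometry.OrthAut1
  Cfsg.Agent.ClassicalGeometry.OrthSemi Cfsg.Agent.H198.Classes
  Cfsg.Agent.LieClassical.QuadForms Cfsg.Agent.H198.ClassesPlus
  Cfsg.Agent.ClassicalGeometry.TrialityOct Cfsg.Agent.ClassicalGeometry.Triality
  Cfsg.Agent.ClassicalGeometry.TrialitySpaces Cfsg.Agent.H198.TriBase Cfsg.Agent.H198.TriAut
  Cfsg.Agent.H198.TriDia Cfsg.Agent.H198.TriTC Cfsg.Agent.H106.RC Cfsg.Agent.H93.RC Cfsg.Agent.H566.RC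

universe u

variable {F : Type u} [Field F] {φ : F ≃+* F}

/-- triality automorphism and product: `M (u ⋄ w) = M' u ⋄ M'' w` implies `x₁ M x₁⁻¹ = M'` -/
theorem xt_conj_tri (hG : Good (plusForm 4 F)) {τ : G8 F} (hτ : TriS τ τ τ) {M M' M'' : G8 F}
    (h : ∀ u w, M.1 (dia τ u w) = dia τ (M'.1 u) (M''.1 w)) :
    xt hG τ * Psi _ M * (xt hG τ)⁻¹ = Psi _ M' := by
  have hi : ∀ x : V8 F, τ⁻¹.1 (τ.1 x) = x := fun x => τ.1.symm_apply_apply x
  have hi' : ∀ x : V8 F, τ.1 (τ⁻¹.1 x) = x := fun x => τ.1.apply_symm_apply x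
  have hk : TriS M (kapG F * τ⁻¹ * M' * τ * kapG F) (kapG F * τ * M'' * τ⁻¹ * kapG F) := by
    intro x y
    have e := h (τ.1 (oconj x)) (τ⁻¹.1 (oconj y))
    have e1 : dia τ (τ.1 (oconj x)) (τ⁻¹.1 (oconj y)) = omul x y := by
      rw [dia, ← aut_oconj hτ, ← aut_oconj hτ.inv, oconj_oconj, oconj_oconj, hi, hi']
    rw [e1] at e
    rw [e, dia, aut_oconj hτ.inv (M'.1 _), aut_oconj hτ (M''.1 _)]
    rfl
  have h1 := rho_conj hG hk
  have e2 : kapG F * (kapG F * τ⁻¹ * M' * τ * kapG F) * kapG F = τ⁻¹ * M' * τ := by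
    have hkk := kapG_mul_kapG (F := F)
    calc kapG F * (kapG F * τ⁻¹ * M' * τ * kapG F) * kapG F =
        (kapG F * kapG F) * (τ⁻¹ * M' * τ) * (kapG F * kapG F) := by group
      _ = _ := by rw [hkk, one_mul, mul_one]
  rw [e2] at h1
  have e3 : xt hG τ * Psi _ M * (xt hG τ)⁻¹ = Psi _ τ * (rho hG * Psi _ M * (rho hG)⁻¹) * (Psi _ τ)⁻¹ := by
    rw [xt]; group
  rw [e3, h1, ← map_inv, ← map_mul, ← map_mul]
  congr 1
  group

/-- `(a ⋄ x) ⋄ b` -/
def Rw (φ : F ≃+* F) (a b x : V8 F) : V8 F := tw φ (tw φ a x) b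

/-- `a ⋄ (x ⋄ b)` -/
def Lw (φ : F ≃+* F) (a b x : V8 F) : V8 F := tw φ a (tw φ x b)

section

variable (h : ∀ a : F, φ (φ (φ a)) = a) {a b : V8 F}

include h

theorem Rw_add (x y : V8 F) : Rw φ a b (x + y) = Rw φ a b x + Rw φ a b y := by
  unfold Rw; rw [tw_add_right h, tw_add_left h]

theorem Rw_smul (c : F) (x : V8 F) : Rw φ a b (c • x) = c • Rw φ a b x := by
  unfold Rw; rw [tw_smul_right h, tw_smul_left h, h]

theorem Lw_add (x y : V8 F) : Lw φ a b (x + y) = Lw φ a b x + Lw φ a b y := by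
  unfold Lw; rw [tw_add_left h, tw_add_right h]

theorem Lw_smul (c : F) (x : V8 F) : Lw φ a b (c • x) = c • Lw φ a b x := by
  unfold Lw; rw [tw_smul_left h, tw_smul_right h, h]

theorem Rw_anti (hab : polar (plusForm 4 F) a b = 0) (x : V8 F) : Rw φ a b x = - Rw φ b a x := by
  have := lin1 h a x b
  rw [hab, map_zero, zero_smul] at this
  exact eq_neg_of_add_eq_zero_left this

theorem Lw_anti (hab : polar (plusForm 4 F) a b = 0) (x : V8 F) : Lw φ a b x = - Lw φ b a x := by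
  have := lin2 h a x b
  rw [hab, map_zero, map_zero, zero_smul] at this
  exact eq_neg_of_add_eq_zero_left this

/-- `R² = 0` -/
theorem Rw_Rw (ha : plusForm 4 F a = 0) (hab : polar (plusForm 4 F) a b = 0) (x : V8 F) :
    Rw φ a b (Rw φ a b x) = 0 := by
  rw [Rw_anti h hab x]
  unfold Rw
  rw [tw_neg_right h, tw_tw' h, ha, map_zero, map_zero, zero_smul, neg_zero, tw_zero_left h]

theorem Lw_Lw (hb : plusForm 4 F b = 0) (hab : polar (plusForm 4 F) a b = 0) (x : V8 F) :
    Lw φ a b (Lw φ a b x) = 0 := by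
  rw [Lw_anti h hab x]
  unfold Lw
  rw [tw_neg_left h, tw_tw h, hb, map_zero, zero_smul, neg_zero, tw_zero_right h]

theorem Rw_norm (ha : plusForm 4 F a = 0) (x : V8 F) : plusForm 4 F (Rw φ a b x) = 0 := by
  unfold Rw; rw [tw_norm h, tw_norm h, ha]; simp

theorem Lw_norm (hb : plusForm 4 F b = 0) (x : V8 F) : plusForm 4 F (Lw φ a b x) = 0 := by
  unfold Lw; rw [tw_norm h, tw_norm h, hb]; simp

theorem Rw_polar (hab : polar (plusForm 4 F) a b = 0) (x : V8 F) :
    polar (plusForm 4 F) x (Rw φ a b x) = 0 := by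
  unfold Rw
  rw [tw_assoc h, tw_tw' h, polar_smul_left, hab, smul_zero, map_zero]

theorem Lw_polar (hab : polar (plusForm 4 F) a b = 0) (x : V8 F) :
    polar (plusForm 4 F) x (Lw φ a b x) = 0 := by
  unfold Lw
  rw [tw_assoc h, tw_polar_left h, hab, map_zero, mul_zero, map_zero]

/-- **the triality identity of a long root element** -/
theorem tri_id (ha : plusForm 4 F a = 0) (hb : plusForm 4 F b = 0) (hab : polar (plusForm 4 F) a b = 0)
    (x z : V8 F) : tw φ x z + (polar (plusForm 4 F) a (tw φ x z) • b - polar (plusForm 4 F) b (tw φ x z) • a) =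
      tw φ (x + Rw φ a b x) (z - Lw φ a b z) := by
  have e1 : tw φ (Rw φ a b x) z - tw φ x (Lw φ a b z) =
      polar (plusForm 4 F) a (tw φ x z) • b - polar (plusForm 4 F) b (tw φ x z) • a := by
    have k1 := lin1 h (tw φ a x) b z
    have k2 := lin2 h x a (tw φ z b)
    have k3 : φ (polar (plusForm 4 F) (tw φ a x) z) = polar (plusForm 4 F) a (tw φ x z) := (tw_assoc h _ _ _).symm
    have k4 : φ (φ (polar (plusForm 4 F) x (tw φ z b))) = polar (plusForm 4 F) b (tw φ x z) := by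
      rw [tw_assoc h, h, polar_comm]
    rw [k3] at k1
    rw [k4] at k2
    unfold Rw Lw
    rw [← k1, ← k2]
    abel
  have e2 : tw φ (Rw φ a b x) (Lw φ a b z) = 0 := by
    have k0 : polar (plusForm 4 F) (tw φ b x) (tw φ a (tw φ z b)) = 0 := by
      have := tw_polar h b x a (tw φ z b)
      rw [tw_tw' h, hb, map_zero, map_zero, zero_smul, polar_comm _ b a, hab] at this
      simpa using this
    rw [Rw_anti h hab x]
    unfold Rw Lw
    rw [tw_neg_left h]
    have k1 := lin1 h (tw φ b x) a (tw φ a (tw φ z b))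
    rw [tw_tw h, ha, map_zero, zero_smul, tw_zero_left h, add_zero, k0, map_zero, zero_smul] at k1
    rw [k1, neg_zero]
  rw [tw_add_left h, tw_sub_right h, tw_sub_right h, e2, sub_zero, ← e1]
  abel

end

/-! ### the elements of `G8 F` -/

section

variable (h : ∀ a : F, φ (φ (φ a)) = a) {a b : V8 F} (ha : plusForm 4 F a = 0) (hb : plusForm 4 F b = 0)
  (hab : polar (plusForm 4 F) a b = 0)

/-- `1 + R` -/
def RP : Equiv.Perm (V8 F) where
  toFun x := x + Rw φ a b x
  invFun x := x - Rw φ a b x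
  left_inv x := by
    change x + Rw φ a b x - Rw φ a b (x + Rw φ a b x) = x
    rw [Rw_add h, Rw_Rw h ha hab]; abel
  right_inv x := by
    change x - Rw φ a b x + Rw φ a b (x - Rw φ a b x) = x
    have e : Rw φ a b (x - Rw φ a b x) = Rw φ a b x := by
      have := Rw_add h (a := a) (b := b) (x - Rw φ a b x) (Rw φ a b x)
      rw [sub_add_cancel, Rw_Rw h ha hab, add_zero] at this
      exact this.symm
    rw [e]; abel

theorem isSS_RP : IsSS (plusForm 4 F) (RingEquiv.refl F) 1 (RP h ha hab) := by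
  refine ⟨one_ne_zero, fun u v => ?_, fun c v => ?_, fun v => ?_⟩
  · change u + v + Rw φ a b (u + v) = u + Rw φ a b u + (v + Rw φ a b v)
    rw [Rw_add h]; abel
  · change c • v + Rw φ a b (c • v) = c • (v + Rw φ a b v)
    rw [Rw_smul h, smul_add]
  · change plusForm 4 F (v + Rw φ a b v) = _
    rw [norm_add, Rw_norm h ha, Rw_polar h hab, one_mul, RingEquiv.refl_apply]; ring

/-- the semisimilitude `1 + R` -/
def RG : G8 F := ⟨RP h ha hab, _, _, isSS_RP h ha hab⟩

/-- `1 - L` -/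
def LP : Equiv.Perm (V8 F) where
  toFun x := x - Lw φ a b x
  invFun x := x + Lw φ a b x
  left_inv x := by
    change x - Lw φ a b x + Lw φ a b (x - Lw φ a b x) = x
    have e : Lw φ a b (x - Lw φ a b x) = Lw φ a b x := by
      have := Lw_add h (a := a) (b := b) (x - Lw φ a b x) (Lw φ a b x)
      rw [sub_add_cancel, Lw_Lw h hb hab, add_zero] at this
      exact this.symm
    rw [e]; abel
  right_inv x := by
    change x + Lw φ a b x - Lw φ a b (x + Lw φ a b x) = x
    rw [Lw_add h, Lw_Lw h hb hab]; abel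

theorem isSS_LP : IsSS (plusForm 4 F) (RingEquiv.refl F) 1 (LP h hb hab) := by
  refine ⟨one_ne_zero, fun u v => ?_, fun c v => ?_, fun v => ?_⟩
  · change u + v - Lw φ a b (u + v) = u - Lw φ a b u + (v - Lw φ a b v)
    rw [Lw_add h]; abel
  · change c • v - Lw φ a b (c • v) = c • (v - Lw φ a b v)
    rw [Lw_smul h, smul_sub]
  · change plusForm 4 F (v - Lw φ a b v) = _
    rw [sub_eq_add_neg, norm_add, QuadraticMap.map_neg, Lw_norm h hb, polar_neg_right, Lw_polar h hab, one_mul,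
      RingEquiv.refl_apply]
    ring

/-- the semisimilitude `1 - L` -/
def LG : G8 F := ⟨LP h hb hab, _, _, isSS_LP h hb hab⟩

/-- the Siegel element as element of `E Q` -/
noncomputable def sE (ha : plusForm 4 F a = 0) (hab : polar (plusForm 4 F) a b = 0) : ↥(E (plusForm 4 F)) :=
  ⟨siegel (plusForm 4 F) a b ha hab, siegel_mem_E _ _⟩

theorem sE_apply (x : V8 F) : (sE ha hab : V8 F ≃ₗ[F] V8 F) x = x + polar (plusForm 4 F) a x • b -
    polar (plusForm 4 F) b x • a - (plusForm 4 F b * polar (plusForm 4 F) a x) • a := by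
  change siegel (plusForm 4 F) a b ha hab x = _
  rw [siegel_apply]

include hb in
/-- **`x₁ g x₁⁻¹ = 1 + R` for the long root element `g`** -/
theorem xt_siegel (hG : Good (plusForm 4 F)) : xt hG (fG φ) * Psi _ (tg _ (sE ha hab)) * (xt hG (fG φ))⁻¹ =
    Psi _ (RG h ha hab) := by
  apply xt_conj_tri hG (tri_fG φ) (M'' := LG h hb hab)
  intro x z
  rw [tg_apply, sE_apply, hb, zero_mul, zero_smul, sub_zero, add_sub_assoc]
  exact tri_id h ha hb hab x z

end

end Cfsg.Agent.H195.RC
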